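/-
The symplectic group is perfect (apart from the small exceptions).
-/
import Mathlib
import Cfsg.Agent.Lib.Classical.SymplecticTrans

set_option autoImplicit false
set_option linter.unusedSectionVars false

open scoped MatrixGroups Matrix commutatorElement
open Matrix

namespace Cfsg.Agent.Lib.Classical

variable {m : ℕ} {F : Type*} [Field F]

local notation "Vv" => (Fin m ⊕ Fin m → F)
local notation "f" => Cfsg.sympForm m F
local notation "Mm" => Matrix (Fin m ⊕ Fin m) (Fin m ⊕ Fin m) F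
local notation "Sp" => symplecticGroup (Fin m) F

/-- Extensionality for symplectic matrices. -/
lemma sp_ext {A B : Sp} (h : ∀ x : Vv, (A : Mm) *ᵥ x = (B : Mm) *ᵥ x) : A = B := by
  apply Subtype.ext
  apply Matrix.toLin'.injective
  apply LinearMap.ext
  intro x
  simpa using h x

lemma tv_mulVec (v : Vv) (c : F) (x : Vv) :
    ((tv v c : Sp) : Mm) *ᵥ x = x + (c * f x v) • v := sympTransvection_mulVec v c x

lemma sp_inv_cancel (A : Sp) (x : Vv) : ((A : Mm) *ᵥ (((A⁻¹ : Sp) : Mm) *ᵥ x)) = x := by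
  rw [Matrix.mulVec_mulVec, ← coe_sp_mul, mul_inv_cancel]
  simp

lemma sp_inv_cancel' (A : Sp) (x : Vv) : (((A⁻¹ : Sp) : Mm) *ᵥ ((A : Mm) *ᵥ x)) = x := by
  rw [Matrix.mulVec_mulVec, ← coe_sp_mul, inv_mul_cancel]
  simp

/-- Conjugates of transvections. -/
lemma conj_tv (A : Sp) (v : Vv) (c : F) : A * tv v c * A⁻¹ = tv ((A : Mm) *ᵥ v) c := by
  apply sp_ext
  intro x
  rw [coe_sp_mul, coe_sp_mul, ← Matrix.mulVec_mulVec, ← Matrix.mulVec_mulVec, tv_mulVec, tv_mulVec, Matrix.mulVec_add,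
    Matrix.mulVec_smul, sp_inv_cancel]
  congr 3
  conv_rhs => rw [← sp_inv_cancel A x, sp_preserves]

lemma tv_mul (v : Vv) (c d : F) : tv v c * tv v d = tv v (c + d) :=
  Subtype.ext (sympTransvection_add v c d)

lemma tv_zero (v : Vv) : tv v 0 = 1 := by
  apply sp_ext
  intro x
  rw [tv_mulVec]
  simp

lemma tv_zero' (c : F) : tv (0 : Vv) c = 1 := by
  apply sp_ext
  intro x
  rw [tv_mulVec]
  simp

lemma tv_inv (v : Vv) (c : F) : (tv v c)⁻¹ = tv v (-c) := by
  rw [inv_eq_iff_mul_eq_one, tv_mul, add_neg_cancel, tv_zero]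

lemma tv_smul (a : F) (v : Vv) (c : F) : tv (a • v) c = tv v (a ^ 2 * c) := by
  apply sp_ext
  intro x
  rw [tv_mulVec, tv_mulVec, sympForm_smul_right, smul_smul]
  congr 2
  ring

lemma exists_partner_one {v : Vv} (hv : v ≠ 0) : ∃ u : Vv, f v u = 1 := by
  have : ∃ u : Vv, f v u ≠ 0 := by
    by_contra hc
    push Not at hc
    apply hv
    apply sympForm_eq_zero_iff
    intro u
    rw [sympForm_flip, hc u]
    simp
  obtain ⟨u, hu⟩ := this
  exact ⟨(f v u)⁻¹ • u, by rw [sympForm_smul_right]; field_simp⟩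

lemma exists_pair_move {u v u' v' : Vv} (h : f u v = 1) (h' : f u' v' = 1) :
    ∃ A : Sp, (A : Mm) *ᵥ u = u' ∧ (A : Mm) *ᵥ v = v' := by
  obtain ⟨A, -, h1, h2⟩ := exists_good_pair (⊤ : Submodule F Vv) top_nondeg
    (u := u) (v := v) (u' := u') (v' := v') trivial trivial trivial trivial h h'
  exact ⟨A, h1, h2⟩

lemma exists_move {v v' : Vv} (hv : v ≠ 0) (hv' : v' ≠ 0) : ∃ A : Sp, (A : Mm) *ᵥ v = v' := by
  obtain ⟨u, hu⟩ := exists_partner_one hv
  obtain ⟨u', hu'⟩ := exists_partner_one hv'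
  obtain ⟨A, h1, -⟩ := exists_pair_move hu hu'
  exact ⟨A, h1⟩

/-- Torus argument. -/
lemma tv_mem_comm_of_torus {a : F} (ha0 : a ≠ 0) (ha1 : a ^ 2 ≠ 1) (v : Vv) (c : F) :
    tv v c ∈ commutator Sp := by
  by_cases hv : v = 0
  · rw [hv, tv_zero']
    exact Subgroup.one_mem _
  obtain ⟨u, hu⟩ := exists_partner_one hv
  obtain ⟨A, h1, -⟩ := exists_pair_move (u' := a • v) (v' := a⁻¹ • u) hu (by
    rw [sympForm_smul_left, sympForm_smul_right, hu]
    field_simp)
  have hd : a ^ 2 - 1 ≠ 0 := sub_ne_zero.mpr ha1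
  have key : tv v c = ⁅A, tv v (c / (a ^ 2 - 1))⁆ := by
    rw [commutatorElement_def, conj_tv, h1, tv_smul, tv_inv, tv_mul]
    congr 1
    field_simp
    ring
  rw [key]
  exact Subgroup.commutator_mem_commutator (Subgroup.mem_top _) (Subgroup.mem_top _)

/-- The Eichler element. -/
def sgE (v w : Vv) : Sp := tv (v + w) 1 * tv v (-1) * tv w (-1)

lemma sgE_mulVec {v w : Vv} (h : f v w = 0) (x : Vv) :
    ((sgE v w : Sp) : Mm) *ᵥ x = x + f x v • w + f x w • v := by
  have h' : f w v = 0 := by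
    rw [sympForm_flip, h, neg_zero]
  simp only [sgE, coe_sp_mul, ← Matrix.mulVec_mulVec, tv_mulVec, sympForm_add_left, sympForm_add_right,
    sympForm_smul_left, sympForm_smul_right, sympForm_self, h, h']
  simp only [mul_zero, add_zero, zero_add, neg_mul, one_mul]
  (module)

/-- The Heisenberg commutator relation. -/
lemma sgE_comm {v w w' : Vv} (h : f v w = 0) (h' : f v w' = 0) :
    ⁅sgE v w, sgE v w'⁆ = tv v (2 * f w' w) := by
  have hw : f w v = 0 := by
    rw [sympForm_flip, h, neg_zero]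
  have hw' : f w' v = 0 := by
    rw [sympForm_flip, h', neg_zero]
  have hflip : f w w' = - f w' w := sympForm_flip w' w
  have key : sgE v w * sgE v w' = tv v (2 * f w' w) * (sgE v w' * sgE v w) := by
    apply sp_ext
    intro x
    simp only [coe_sp_mul, ← Matrix.mulVec_mulVec, sgE_mulVec h, sgE_mulVec h', tv_mulVec, sympForm_add_left,
      sympForm_add_right, sympForm_smul_left, sympForm_smul_right, sympForm_self, h, h', hw, hw', hflip]
    simp only [mul_zero, add_zero, zero_add, neg_mul, one_mul]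
    (module)
  rw [commutatorElement_def, key]
  group

lemma tv_mem_comm_of_heis (h2 : (2 : F) ≠ 0) (hm : 2 ≤ m) (v : Vv) (c : F) : tv v c ∈ commutator Sp := by
  by_cases hv : v = 0
  · rw [hv, tv_zero']
    exact Subgroup.one_mem _
  let i₀ : Fin m := ⟨0, by omega⟩
  let i₁ : Fin m := ⟨1, by omega⟩
  have hi : i₀ ≠ i₁ := by
    intro h
    have := congrArg Fin.val h
    simp [i₀, i₁] at this
  let v₀ : Vv := Pi.single (Sum.inl i₀) 1
  let w : Vv := Pi.single (Sum.inl i₁) 1
  let w' : Vv := Pi.single (Sum.inr i₁) (c / 2)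
  have hv₀ : v₀ ≠ 0 := by
    intro h
    have := congrFun h (Sum.inl i₀)
    simp [v₀] at this
  have h1 : f v₀ w = 0 := by
    simp [sympForm_apply, v₀, w, Pi.single_apply]
  have h2' : f v₀ w' = 0 := by
    simp [sympForm_apply, v₀, w', Pi.single_apply, hi, hi.symm]
  have h3 : f w' w = c / 2 := by
    simp [sympForm_apply, w, w', Pi.single_apply]
  have key : tv v₀ c = ⁅sgE v₀ w, sgE v₀ w'⁆ := by
    rw [sgE_comm h1 h2', h3]
    congr 1
    field_simp
  have hmem : tv v₀ c ∈ commutator Sp := by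
    rw [key]
    exact Subgroup.commutator_mem_commutator (Subgroup.mem_top _) (Subgroup.mem_top _)
  obtain ⟨A, hA⟩ := exists_move hv₀ hv
  rw [← hA, ← conj_tv]
  exact Subgroup.Normal.conj_mem inferInstance _ hmem A

/-- Products over a totally isotropic family. -/
lemma prod_list (l : List Vv) (hl : ∀ a ∈ l, ∀ b ∈ l, f a b = 0) (x : Vv) :
    (((l.map (fun w => tv w (1 : F))).prod : Sp) : Mm) *ᵥ x = x + (l.map (fun w => f x w • w)).sum := by
  induction l with
  | nil =>
    simp
  | cons a l ih =>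
    have hl' : ∀ a ∈ l, ∀ b ∈ l, f a b = 0 := fun p hp q hq =>
      hl p (List.mem_cons_of_mem _ hp) q (List.mem_cons_of_mem _ hq)
    simp only [List.map_cons, List.prod_cons, List.sum_cons, coe_sp_mul, ← Matrix.mulVec_mulVec]
    rw [ih hl', tv_mulVec, one_mul, sympForm_add_left]
    have h0 : f (l.map (fun w => f x w • w)).sum a = 0 := by
      have hgen : ∀ l' : List Vv, (∀ b ∈ l', f b a = 0) → f (l'.map (fun w => f x w • w)).sum a = 0 := by
        intro l' h
        induction l' with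
        | nil =>
          simp [Cfsg.sympForm]
        | cons b l' ih' =>
          simp only [List.map_cons, List.sum_cons]
          rw [sympForm_add_left, sympForm_smul_left, h b (List.mem_cons_self ..), mul_zero, zero_add]
          exact ih' (fun p hp => h p (List.mem_cons_of_mem _ hp))
      exact hgen l (fun b hb => hl b (List.mem_cons_of_mem _ hb) a (List.mem_cons_self ..))
    rw [h0, add_zero]
    abel

/-- The Lagrangian relation in characteristic two. -/
lemma lagr_prod (h2 : (2 : F) = 0) (hm : 3 ≤ m) :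
    ∃ v₁ v₂ v₃ v₄ v₅ v₆ v₇ : Vv, v₁ ≠ 0 ∧ v₂ ≠ 0 ∧ v₃ ≠ 0 ∧ v₄ ≠ 0 ∧ v₅ ≠ 0 ∧ v₆ ≠ 0 ∧ v₇ ≠ 0 ∧
      tv v₁ (1 : F) * (tv v₂ 1 * (tv v₃ 1 * (tv v₄ 1 * (tv v₅ 1 * (tv v₆ 1 * (tv v₇ 1 * 1)))))) = 1 := by
  let i₀ : Fin m := ⟨0, by omega⟩
  let i₁ : Fin m := ⟨1, by omega⟩
  let i₂ : Fin m := ⟨2, by omega⟩
  have h01 : i₀ ≠ i₁ := by
    intro h
    have := congrArg Fin.val h
    simp [i₀, i₁] at this
  have h02 : i₀ ≠ i₂ := by
    intro h
    have := congrArg Fin.val h
    simp [i₀, i₂] at this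
  have h12 : i₁ ≠ i₂ := by
    intro h
    have := congrArg Fin.val h
    simp [i₁, i₂] at this
  let e₀ : Vv := Pi.single (Sum.inl i₀) 1
  let e₁ : Vv := Pi.single (Sum.inl i₁) 1
  let e₂ : Vv := Pi.single (Sum.inl i₂) 1
  have horth : ∀ i j : Fin m, f (Pi.single (Sum.inl i) 1) (Pi.single (Sum.inl j) 1) = 0 := by
    intro i j
    simp [sympForm_apply, Pi.single_apply]
  have o00 : f e₀ e₀ = 0 := horth _ _
  have o01 : f e₀ e₁ = 0 := horth _ _
  have o02 : f e₀ e₂ = 0 := horth _ _
  have o10 : f e₁ e₀ = 0 := horth _ _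
  have o11 : f e₁ e₁ = 0 := horth _ _
  have o12 : f e₁ e₂ = 0 := horth _ _
  have o20 : f e₂ e₀ = 0 := horth _ _
  have o21 : f e₂ e₁ = 0 := horth _ _
  have o22 : f e₂ e₂ = 0 := horth _ _
  have hp (c : Fin m) (y : Vv) (k : F) (hy : y (Sum.inl c) + k ≠ 0) : y + Pi.single (Sum.inl c) k ≠ 0 := by
    intro h
    have := congrFun h (Sum.inl c)
    simp at this
    exact hy this
  have e00 : e₀ (Sum.inl i₀) = 1 := by simp [e₀]
  have e01 : e₀ (Sum.inl i₁) = 0 := by simp [e₀, Pi.single_apply, h01.symm]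
  have e02 : e₀ (Sum.inl i₂) = 0 := by simp [e₀, Pi.single_apply, h02.symm]
  have e10 : e₁ (Sum.inl i₀) = 0 := by simp [e₁, Pi.single_apply, h01]
  have e11 : e₁ (Sum.inl i₁) = 1 := by simp [e₁]
  have e12 : e₁ (Sum.inl i₂) = 0 := by simp [e₁, Pi.single_apply, h12.symm]
  have e20 : e₂ (Sum.inl i₀) = 0 := by simp [e₂, Pi.single_apply, h02]
  have e21 : e₂ (Sum.inl i₁) = 0 := by simp [e₂, Pi.single_apply, h12]
  have e22 : e₂ (Sum.inl i₂) = 1 := by simp [e₂]
  have nz : ∀ (y : Vv) (c : Fin m), y (Sum.inl c) = 1 → y ≠ 0 := by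
    intro y c hy h
    rw [h] at hy
    exact zero_ne_one hy
  refine ⟨e₀, e₁, e₂, e₀ + e₁, e₀ + e₂, e₁ + e₂, e₀ + e₁ + e₂,
    nz _ i₀ e00, nz _ i₁ e11, nz _ i₂ e22,
    nz _ i₀ (by simp [e00, e10]), nz _ i₀ (by simp [e00, e20]), nz _ i₁ (by simp [e11, e21]),
    nz _ i₀ (by simp [e00, e10, e20]), ?_⟩
  apply sp_ext
  intro x
  have hprod := prod_list (F := F) [e₀, e₁, e₂, e₀ + e₁, e₀ + e₂, e₁ + e₂, e₀ + e₁ + e₂] (by
    intro a ha b hb
    simp only [List.mem_cons, List.not_mem_nil, or_false] at ha hb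
    rcases ha with rfl | rfl | rfl | rfl | rfl | rfl | rfl <;>
      rcases hb with rfl | rfl | rfl | rfl | rfl | rfl | rfl <;>
      simp [sympForm_add_left, sympForm_add_right, o00, o01, o02, o10, o11, o12, o20, o21, o22]) x
  simp only [List.map_cons, List.map_nil, List.prod_cons, List.prod_nil, List.sum_cons, List.sum_nil,
    sympForm_add_right] at hprod
  rw [hprod]
  have h3 : ∀ y : Vv, (2 : F) • y = 0 := fun y => by rw [h2, zero_smul]
  set a := f x e₀
  set b := f x e₁
  set c := f x e₂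
  have h4 : a • e₀ + (b • e₁ + (c • e₂ + ((a + b) • (e₀ + e₁) + ((a + c) • (e₀ + e₂) + ((b + c) • (e₁ + e₂) +
      ((a + b + c) • (e₀ + e₁ + e₂) + 0)))))) = (2 : F) • ((2 * a + b + c) • e₀ + (a + 2 * b + c) • e₁ + (a + b + 2 * c) • e₂) := by
    (module)
  rw [h4, h3]
  simp

/-- In characteristic two with `m ≥ 3`, transvections with parameter one are commutators. -/
lemma tv_one_mem_comm (h2 : (2 : F) = 0) (hm : 3 ≤ m) (v : Vv) : tv v (1 : F) ∈ commutator Sp := by
  by_cases hv : v = 0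
  · rw [hv, tv_zero']
    exact Subgroup.one_mem _
  rw [← Abelianization.ker_of Sp, MonoidHom.mem_ker]
  set τ := Abelianization.of (tv v (1 : F)) with hτ
  have hall : ∀ w : Vv, w ≠ 0 → Abelianization.of (tv w (1 : F)) = τ := by
    intro w hw
    obtain ⟨A, hA⟩ := exists_move hv hw
    rw [← hA, ← conj_tv, map_mul, map_mul, map_inv, hτ, mul_comm (Abelianization.of A)]
    simp
  obtain ⟨v₁, v₂, v₃, v₄, v₅, v₆, v₇, h₁, h₂, h₃, h₄, h₅, h₆, h₇, hprod⟩ := lagr_prod (m := m) h2 hm
  have h7 := congrArg Abelianization.of hprod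
  simp only [map_mul, map_one, hall _ h₁, hall _ h₂, hall _ h₃, hall _ h₄, hall _ h₅, hall _ h₆, hall _ h₇] at h7
  have hsq : τ * τ = 1 := by
    rw [hτ, ← map_mul, tv_mul, show (1 : F) + 1 = 2 by norm_num, h2, tv_zero, map_one]
  calc τ = τ * (τ * (τ * (τ * (τ * (τ * (τ * 1)))))) * ((τ * τ) * (τ * τ) * (τ * τ))⁻¹ := by
        group
    _ = 1 := by
        rw [h7, hsq]
        simp

/-- The symplectic group is perfect. -/
theorem sp_perfect [Fintype F] (h : 3 ≤ m ∨ (m = 2 ∧ 3 ≤ Fintype.card F) ∨ 4 ≤ Fintype.card F) :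
    commutator Sp = ⊤ := by
  classical
  have hall : ∀ (v : Vv) (c : F), tv v c ∈ commutator Sp := by
    intro v c
    by_cases hq4 : 4 ≤ Fintype.card F
    · -- an element outside `{0, 1, -1}`
      obtain ⟨a, ha⟩ : ∃ a : F, a ∉ ({0, 1, -1} : Finset F) := by
        by_contra hcon
        push Not at hcon
        have hsub : (Finset.univ : Finset F) ⊆ {0, 1, -1} := fun x _ => hcon x
        have := Finset.card_le_card hsub
        have h3 : ({0, 1, -1} : Finset F).card ≤ 3 := Finset.card_le_three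
        rw [Finset.card_univ] at this
        omega
      simp only [Finset.mem_insert, Finset.mem_singleton, not_or] at ha
      refine tv_mem_comm_of_torus ha.1 ?_ v c
      intro h1
      have h3 : (a - 1) * (a + 1) = 0 := by linear_combination h1
      rcases mul_eq_zero.mp h3 with h4 | h4
      · exact ha.2.1 (sub_eq_zero.mp h4)
      · exact ha.2.2 (eq_neg_of_add_eq_zero_left h4)
    have hm2 : 2 ≤ m := by
      rcases h with h | h | h
      · omega
      · omega
      · omega
    by_cases h2 : (2 : F) = 0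
    · have hq2 : Fintype.card F = 2 := by
        have hlt : 1 < Fintype.card F := Fintype.one_lt_card
        by_contra hne
        have h3 : Fintype.card F = 3 := by omega
        have hch : ringChar F = 2 := CharP.ringChar_of_prime_eq_zero Nat.prime_two (by exact_mod_cast h2)
        have := FiniteField.even_card_iff_char_two.mp hch
        omega
      have hm3 : 3 ≤ m := by
        rcases h with h | h | h
        · exact h
        · omega
        · omega
      have h01 : c = 0 ∨ c = 1 := by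
        by_cases hc : c = 0
        · exact Or.inl hc
        · right
          have := FiniteField.pow_card_sub_one_eq_one c hc
          rw [hq2] at this
          simpa using this
      rcases h01 with rfl | rfl
      · rw [tv_zero]
        exact Subgroup.one_mem _
      · exact tv_one_mem_comm h2 hm3 v
    · exact tv_mem_comm_of_heis h2 hm2 v c
  rw [eq_top_iff, ← TT_eq_top, TT, Subgroup.closure_le]
  rintro A ⟨w, c, hA⟩
  have : A = tv w c := Subtype.ext hA
  rw [this]
  exact hall w c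

end Cfsg.Agent.Lib.Classical
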