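/-
Primitivity of the symplectic group on the points of projective space.
-/
import Mathlib
import Cfsg.Agent.Lib.Classical.SpPerfect
import Cfsg.Agent.Lib.Classical.IsoBridge

set_option autoImplicit false
set_option linter.unusedSectionVars false

open scoped MatrixGroups Matrix commutatorElement LinearAlgebra.Projectivization Pointwise
open Matrix

namespace Cfsg.Agent.Lib.Classical

variable {m : ℕ} {F : Type*} [Field F]

local notation "Vv" => (Fin m ⊕ Fin m → F)
local notation "f" => Cfsg.sympForm m F
local notation "Mm" => Matrix (Fin m ⊕ Fin m) (Fin m ⊕ Fin m) F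
local notation "Sp" => symplecticGroup (Fin m) F

/-- The symplectic element acting. -/
noncomputable abbrev spE (A : Sp) : Cfsg.spGL m F := Abs.spEquivGL m F A

lemma sp_ne_zero (A : Sp) {v : Vv} (hv : v ≠ 0) : (A : Mm) *ᵥ v ≠ 0 := by
  intro h
  apply hv
  have := sp_inv_cancel' A v
  rw [h, Matrix.mulVec_zero] at this
  exact this.symm

lemma spE_smul_mk (A : Sp) {v : Vv} (hv : v ≠ 0) :
    spE A • (Projectivization.mk F v hv) = Projectivization.mk F ((A : Mm) *ᵥ v) (sp_ne_zero A hv) := rfl

lemma mk_smul (a : F) (ha : a ≠ 0) {v : Vv} (hv : v ≠ 0) :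
    Projectivization.mk F (a • v) (smul_ne_zero ha hv) = Projectivization.mk F v hv := by
  rw [Projectivization.mk_eq_mk_iff']
  exact ⟨a, rfl⟩


/-- Prescribing the values of two independent linear forms. -/
lemma exists_values {x z : Vv} (h : LinearIndependent F ![x, z]) : ∃ s : Vv, f x s = 1 ∧ f z s = 1 := by
  classical
  obtain ⟨φ, hφ⟩ := Module.exists_dual_forall_apply_eq_one (K := F) (V := Vv) (s := Set.univ) (v := ![x, z]) (by
    simpa using h)
  have h0 := hφ 0 (Set.mem_univ _)
  have h1 := hφ 1 (Set.mem_univ _)
  simp only [Matrix.cons_val_zero, Matrix.cons_val_one] at h0 h1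
  have hnd := sympBilin_nondegenerate (m := m) (R := F)
  let s : Vv := ((sympBilin m F).toDual hnd).symm (-φ)
  have hs : ∀ y, f s y = - φ y := by
    intro y
    have h2 := LinearMap.BilinForm.apply_toDual_symm_apply (hB := hnd) (-φ) y
    exact h2
  refine ⟨s, ?_, ?_⟩
  · rw [sympForm_flip, hs, h0]
    simp
  · rw [sympForm_flip, hs, h1]
    simp

lemma indep_of_mk_ne {x z : Vv} (hx : x ≠ 0) (hz : z ≠ 0)
    (hne : Projectivization.mk F x hx ≠ Projectivization.mk F z hz) : LinearIndependent F ![x, z] := by
  rw [LinearIndependent.pair_iff]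
  intro s t hst
  by_contra hcon
  apply hne
  rw [Projectivization.mk_eq_mk_iff']
  have hs : s ≠ 0 := by
    rintro rfl
    have ht : t ≠ 0 := fun ht => hcon ⟨rfl, ht⟩
    rw [zero_smul, zero_add] at hst
    exact hz ((smul_eq_zero.mp hst).resolve_left ht)
  refine ⟨-t / s, ?_⟩
  have h1 : x = -(s⁻¹ * t) • z := by
    have h2 : s • x = -(t • z) := eq_neg_of_add_eq_zero_left hst
    calc x = s⁻¹ • (s • x) := by rw [smul_smul, inv_mul_cancel₀ hs, one_smul]
      _ = _ := by rw [h2, smul_neg, smul_smul, neg_smul]
  rw [h1]
  congr 1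
  field_simp

section block

variable {B : Set (ℙ F (Fin m ⊕ Fin m → F))} (hB : MulAction.IsBlock (↥(Cfsg.spGL m F)) B)

include hB in
lemma block_step {x y z : Vv} (hx : x ≠ 0) (hy : y ≠ 0) (hz : z ≠ 0)
    (h1 : Projectivization.mk F x hx ∈ B) (h2 : Projectivization.mk F y hy ∈ B) (hxy : f x y ≠ 0) (hxz : f x z ≠ 0) :
    Projectivization.mk F z hz ∈ B := by
  obtain ⟨A, hA1, hA2⟩ := exists_pair_move (u := x) (v := (f x y)⁻¹ • y) (u' := x) (v' := (f x z)⁻¹ • z)
    (by rw [sympForm_smul_right]; field_simp) (by rw [sympForm_smul_right]; field_simp)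
  have hg : spE A • Projectivization.mk F x hx = Projectivization.mk F x hx := by
    rw [spE_smul_mk]
    exact Projectivization.mk_eq_mk_iff' F _ _ _ _ |>.mpr ⟨1, by simpa using hA1.symm⟩
  have hB' := hB.smul_eq_of_mem (g := spE A) h1 (by rw [hg]; exact h1)
  have hmem : spE A • Projectivization.mk F y hy ∈ spE A • B := Set.smul_mem_smul_set h2
  rw [hB'] at hmem
  have : spE A • Projectivization.mk F y hy = Projectivization.mk F z hz := by
    rw [spE_smul_mk, Projectivization.mk_eq_mk_iff']
    have h3 : (A : Mm) *ᵥ y = (f x y) • ((f x z)⁻¹ • z) := by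
      rw [← hA2, Matrix.mulVec_smul, smul_smul, mul_inv_cancel₀ hxy, one_smul]
    rw [h3, smul_smul]
    exact ⟨_, rfl⟩
  rwa [this] at hmem

include hB in
/-- A block with a non-orthogonal pair is everything. -/
lemma block_univ {x y : Vv} (hx : x ≠ 0) (hy : y ≠ 0)
    (h1 : Projectivization.mk F x hx ∈ B) (h2 : Projectivization.mk F y hy ∈ B) (hxy : f x y ≠ 0) : B = Set.univ := by
  rw [Set.eq_univ_iff_forall]
  intro r
  induction r using Projectivization.ind with
  | h z hz =>
    by_cases hxz : f x z = 0
    · by_cases hr : Projectivization.mk F x hx = Projectivization.mk F z hz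
      · rwa [← hr]
      have hli := indep_of_mk_ne hx hz hr
      obtain ⟨s, hs1, hs2⟩ := exists_values hli
      have hs0 : s ≠ 0 := by
        rintro rfl
        simp [Cfsg.sympForm] at hs1
      have hsB : Projectivization.mk F s hs0 ∈ B := block_step hB hx hy hs0 h1 h2 hxy (by rw [hs1]; exact one_ne_zero)
      have hsz : f s z ≠ 0 := by
        rw [sympForm_flip, hs2]
        simp
      have hsx : f s x ≠ 0 := by
        rw [sympForm_flip, hs1]
        simp
      exact block_step hB hs0 hx hz hsB h1 hsx hsz
    · exact block_step hB hx hy hz h1 h2 hxy hxz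

include hB in
/-- A block with two points contains a non-orthogonal pair. -/
lemma block_pair {x y : Vv} (hx : x ≠ 0) (hy : y ≠ 0)
    (h1 : Projectivization.mk F x hx ∈ B) (h2 : Projectivization.mk F y hy ∈ B)
    (hne : Projectivization.mk F x hx ≠ Projectivization.mk F y hy) : B = Set.univ := by
  by_cases hxy : f x y = 0
  · have hli := indep_of_mk_ne hx hy hne
    -- a vector orthogonal to `x`, non-orthogonal to `y`
    have hli2 : LinearIndependent F ![y, x + y] := by
      rw [LinearIndependent.pair_iff] at hli ⊢
      intro s t hst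
      have h3 := hli t (s + t) (by
        rw [← hst]
        simp only [smul_add, add_smul]
        abel)
      have h4 : s = 0 := by
        have := h3.2
        rw [h3.1, add_zero] at this
        exact this
      exact ⟨h4, h3.1⟩
    obtain ⟨s, hs1, hs2⟩ := exists_values hli2
    have hsx : f x s = 0 := by
      rw [sympForm_add_left, hs1] at hs2
      linear_combination hs2
    have hs0 : s ≠ 0 := by
      rintro rfl
      simp [Cfsg.sympForm] at hs1
    -- the transvection moving `y` to `s`
    let A : Sp := tv (y - s) 1
    have hAx : (A : Mm) *ᵥ x = x := by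
      rw [tv_mulVec]
      have h5 : x = -(-x) := by simp
      have : f x (y - s) = 0 := by
        rw [sub_eq_add_neg, sympForm_add_right, hxy]
        have : -s = (-1 : F) • s := by simp
        rw [this, sympForm_smul_right, hsx]
        simp
      rw [this]
      simp
    have hAy : (A : Mm) *ᵥ y = s := by
      rw [tv_mulVec]
      have : f y (y - s) = -1 := by
        rw [sub_eq_add_neg, sympForm_add_right, sympForm_self]
        have : -s = (-1 : F) • s := by simp
        rw [this, sympForm_smul_right, hs1]
        simp
      rw [this]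
      simp
    have hg : spE A • Projectivization.mk F x hx = Projectivization.mk F x hx := by
      rw [spE_smul_mk]
      exact Projectivization.mk_eq_mk_iff' F _ _ _ _ |>.mpr ⟨1, by simpa using hAx.symm⟩
    have hB' := hB.smul_eq_of_mem (g := spE A) h1 (by rw [hg]; exact h1)
    have hmem : spE A • Projectivization.mk F y hy ∈ spE A • B := Set.smul_mem_smul_set h2
    rw [hB'] at hmem
    have h6 : spE A • Projectivization.mk F y hy = Projectivization.mk F s hs0 := by
      rw [spE_smul_mk]
      exact Projectivization.mk_eq_mk_iff' F _ _ _ _ |>.mpr ⟨1, by simpa using hAy.symm⟩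
    rw [h6] at hmem
    exact block_univ hB hy hs0 h2 hmem (by rw [hs1]; exact one_ne_zero)
  · exact block_univ hB hx hy h1 h2 hxy

end block

/-- The action of the symplectic group on points is primitive. -/
theorem spGL_preprimitive (hm : 1 ≤ m) : MulAction.IsPreprimitive (↥(Cfsg.spGL m F)) (ℙ F (Fin m ⊕ Fin m → F)) := by
  classical
  haveI hT : MulAction.IsPretransitive (↥(Cfsg.spGL m F)) (ℙ F (Fin m ⊕ Fin m → F)) := by
    constructor
    intro p q
    induction p using Projectivization.ind with
    | h x hx =>
      induction q using Projectivization.ind with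
      | h y hy =>
        obtain ⟨A, hA⟩ := exists_move hx hy
        refine ⟨spE A, ?_⟩
        rw [spE_smul_mk]
        exact Projectivization.mk_eq_mk_iff' F _ _ _ _ |>.mpr ⟨1, by simpa using hA.symm⟩
  refine ⟨?_⟩
  intro B hB
  by_cases hsub : B.Subsingleton
  · exact Or.inl hsub
  right
  rw [Set.not_subsingleton_iff] at hsub
  obtain ⟨p, hp, q, hq, hpq⟩ := hsub
  induction p using Projectivization.ind with
  | h x hx =>
    induction q using Projectivization.ind with
    | h y hy =>
      exact block_pair hB hx hy hp hq hpq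

end Cfsg.Agent.Lib.Classical
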