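/-
Simplicity of the projective symplectic group (Iwasawa).
-/
import Mathlib
import Cfsg.Agent.Lib.Classical.SpPrim

set_option autoImplicit false
set_option linter.unusedSectionVars false

open scoped MatrixGroups Matrix commutatorElement LinearAlgebra.Projectivization Pointwise
open Matrix

namespace Cfsg.Agent.Lib.Classical

variable {m : ℕ} {F : Type*} [Field F]

local notation "Vv" => (Fin m ⊕ Fin m → F)
local notation "f" => Cfsg.sympForm m F
local notation "Mm" => Matrix (Fin m ⊕ Fin m) (Fin m ⊕ Fin m) F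
local notation "Sp" => symplecticGroup (Fin m) F

/-- A quotient by the centre is simple when every normal subgroup is central or everything. -/
theorem isSimple_quotient_center {G : Type*} [Group G] (hne : Subgroup.center G ≠ ⊤)
    (h : ∀ N : Subgroup G, N.Normal → N ≤ Subgroup.center G ∨ N = ⊤) :
    IsSimpleGroup (G ⧸ Subgroup.center G) := by
  haveI : Nontrivial (G ⧸ Subgroup.center G) := by
    obtain ⟨g, hg⟩ : ∃ g, g ∉ Subgroup.center G := by
      by_contra hcon
      push Not at hcon
      exact hne (eq_top_iff.mpr fun g _ => hcon g)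
    refine ⟨⟨QuotientGroup.mk g, 1, ?_⟩⟩
    intro h1
    exact hg ((QuotientGroup.eq_one_iff g).mp h1)
  refine IsSimpleGroup.mk ?_
  intro H hH
  have hN : (H.comap (QuotientGroup.mk' (Subgroup.center G))).Normal := hH.comap _
  rcases h _ hN with h1 | h1
  · left
    rw [eq_bot_iff]
    intro x hx
    obtain ⟨g, rfl⟩ := QuotientGroup.mk_surjective x
    have : g ∈ Subgroup.center G := h1 hx
    rw [Subgroup.mem_bot]
    exact (QuotientGroup.eq_one_iff g).mpr this
  · right
    rw [eq_top_iff]
    intro x _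
    obtain ⟨g, rfl⟩ := QuotientGroup.mk_surjective x
    have : g ∈ H.comap (QuotientGroup.mk' (Subgroup.center G)) := by
      rw [h1]
      trivial
    exact this

/-- The root group of a vector. -/
noncomputable def rootHom (v : Vv) : Multiplicative F →* Cfsg.spGL m F where
  toFun c := spE (tv v (Multiplicative.toAdd c))
  map_one' := by
    rw [toAdd_one, tv_zero]
    exact map_one (Abs.spEquivGL m F)
  map_mul' a b := by
    rw [toAdd_mul, ← tv_mul]
    exact map_mul (Abs.spEquivGL m F) _ _

lemma mem_root_iff (v : Vv) (g : Cfsg.spGL m F) : g ∈ (rootHom v).range ↔ ∃ c, g = spE (tv v c) := by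
  constructor
  · rintro ⟨c, rfl⟩
    exact ⟨_, rfl⟩
  · rintro ⟨c, rfl⟩
    exact ⟨Multiplicative.ofAdd c, rfl⟩

lemma spE_surj (g : Cfsg.spGL m F) : ∃ A : Sp, spE A = g := (Abs.spEquivGL m F).surjective g

lemma spE_conj (A : Sp) (v : Vv) (c : F) :
    MulAut.conj (spE A) • spE (tv v c) = spE (tv ((A : Mm) *ᵥ v) c) := by
  rw [← conj_tv]
  change spE A * spE (tv v c) * (spE A)⁻¹ = _
  simp [spE, map_mul, map_inv]

/-- The Iwasawa structure. -/
noncomputable def iwaSp : MulAction.IwasawaStructure (Cfsg.spGL m F) (ℙ F (Fin m ⊕ Fin m → F)) where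
  T p := (rootHom p.rep).range
  is_comm p := by
    refine ⟨⟨?_⟩⟩
    rintro ⟨_, a, rfl⟩ ⟨_, b, rfl⟩
    apply Subtype.ext
    change rootHom p.rep a * rootHom p.rep b = rootHom p.rep b * rootHom p.rep a
    rw [← map_mul, ← map_mul, mul_comm]
  is_conj g p := by
    obtain ⟨A, rfl⟩ := spE_surj g
    have hrep : ∃ a : F, a ≠ 0 ∧ a • ((A : Mm) *ᵥ p.rep) = (spE A • p).rep := by
      have h1 : spE A • p = Projectivization.mk F ((A : Mm) *ᵥ p.rep) (sp_ne_zero A p.rep_nonzero) := by
        conv_lhs => rw [← p.mk_rep]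
        rw [spE_smul_mk]
      rw [h1]
      obtain ⟨a, ha⟩ := Projectivization.exists_smul_eq_mk_rep F ((A : Mm) *ᵥ p.rep) (sp_ne_zero A p.rep_nonzero)
      exact ⟨a, a.ne_zero, ha⟩
    obtain ⟨a, ha0, ha⟩ := hrep
    ext x
    rw [mem_root_iff, Subgroup.mem_smul_pointwise_iff_exists]
    constructor
    · rintro ⟨c, rfl⟩
      refine ⟨spE (tv p.rep (a ^ 2 * c)), (mem_root_iff _ _).mpr ⟨_, rfl⟩, ?_⟩
      rw [spE_conj, ← ha, tv_smul]
    · rintro ⟨y, hy, rfl⟩
      obtain ⟨c, rfl⟩ := (mem_root_iff _ _).mp hy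
      refine ⟨c / a ^ 2, ?_⟩
      rw [spE_conj, ← ha, tv_smul]
      congr 2
      field_simp
  is_generator := by
    rw [eq_top_iff]
    rintro g -
    obtain ⟨A, rfl⟩ := spE_surj g
    have hA : A ∈ TT m F := by
      rw [TT_eq_top]
      trivial
    rw [TT] at hA
    induction hA using Subgroup.closure_induction with
    | mem x hx =>
      obtain ⟨w, c, hx⟩ := hx
      have hxw : x = tv w c := Subtype.ext hx
      rw [hxw]
      by_cases hw : w = 0
      · rw [hw, tv_zero']
        have : spE (1 : Sp) = 1 := map_one (Abs.spEquivGL m F)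
        rw [this]
        exact Subgroup.one_mem _
      · let p : ℙ F (Fin m ⊕ Fin m → F) := Projectivization.mk F w hw
        obtain ⟨a, ha⟩ := Projectivization.exists_smul_eq_mk_rep F w hw
        have h3 : (p.rep : Vv) = (a : F) • w := ha.symm
        have hmem : spE (tv w c) ∈ (rootHom p.rep).range := by
          rw [mem_root_iff]
          refine ⟨c / (a : F) ^ 2, ?_⟩
          rw [h3, tv_smul]
          congr 2
          field_simp
        exact Subgroup.mem_iSup_of_mem p hmem
    | one =>
      have : spE (1 : Sp) = 1 := map_one (Abs.spEquivGL m F)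
      rw [this]
      exact Subgroup.one_mem _
    | mul x y _ _ hx hy =>
      have : spE (x * y) = spE x * spE y := map_mul (Abs.spEquivGL m F) x y
      rw [this]
      exact Subgroup.mul_mem _ hx hy
    | inv x _ hx =>
      have : spE x⁻¹ = (spE x)⁻¹ := map_inv (Abs.spEquivGL m F) x
      rw [this]
      exact Subgroup.inv_mem _ hx

/-- An element fixing all points is central. -/
lemma central_of_fix (A : Sp)
    (h : ∀ (v : Vv) (hv : v ≠ 0), spE A • Projectivization.mk F v hv = Projectivization.mk F v hv) :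
    A ∈ Subgroup.center Sp := by
  have heig : ∀ v : Vv, ¬ LinearIndependent F ![v, Matrix.toLin' (A : Mm) v] := by
    intro v hli
    have hv : v ≠ 0 := by
      rintro rfl
      exact hli.ne_zero 0 rfl
    have h1 := h v hv
    rw [spE_smul_mk, Projectivization.mk_eq_mk_iff'] at h1
    obtain ⟨a, ha⟩ := h1
    have := LinearIndependent.pair_iff.mp hli a (-1) (by
      simp only [Matrix.toLin'_apply, neg_smul, one_smul, ← ha]
      simp)
    simpa using this.2
  obtain ⟨a, ha⟩ := (Matrix.toLin' (A : Mm)).exists_eq_smul_id_of_forall_notLinearIndependent heig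
  have hAa : (A : Mm) = a • 1 := by
    have h1 : (A : Mm) = LinearMap.toMatrix' (Matrix.toLin' (A : Mm)) := by simp
    rw [h1, ha]
    ext i j
    simp [LinearMap.toMatrix'_apply, Matrix.one_apply, Pi.single_apply, Module.algebraMap_end_apply]
  rw [Subgroup.mem_center_iff]
  intro B
  apply Subtype.ext
  change (B : Mm) * (A : Mm) = (A : Mm) * (B : Mm)
  rw [hAa]
  simp

/-- Normal subgroups of the symplectic group. -/
theorem sp_normal (hm : 1 ≤ m) (hperf : commutator Sp = ⊤) (N : Subgroup Sp) (hN : N.Normal) :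
    N ≤ Subgroup.center Sp ∨ N = ⊤ := by
  classical
  let E : Sp ≃* Cfsg.spGL m F := Abs.spEquivGL m F
  let N' : Subgroup (Cfsg.spGL m F) := N.map E.toMonoidHom
  haveI hN' : N'.Normal := hN.map _ E.surjective
  haveI : MulAction.IsPreprimitive (↥(Cfsg.spGL m F)) (ℙ F (Fin m ⊕ Fin m → F)) := spGL_preprimitive hm
  by_cases hfix : MulAction.fixedPoints N' (ℙ F (Fin m ⊕ Fin m → F)) = Set.univ
  · left
    intro A hA
    apply central_of_fix
    intro v hv
    have h1 : Projectivization.mk F v hv ∈ MulAction.fixedPoints N' (ℙ F (Fin m ⊕ Fin m → F)) := by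
      rw [hfix]
      trivial
    have h2 := h1 ⟨E A, Subgroup.mem_map_of_mem _ hA⟩
    exact h2
  · right
    have h1 := iwaSp.commutator_le N' hfix
    have h3 : commutator Sp ≤ (commutator (Cfsg.spGL m F)).comap E.toMonoidHom := by
      rw [commutator_def, Subgroup.commutator_le]
      intro a _ b _
      rw [Subgroup.mem_comap, map_commutatorElement]
      exact Subgroup.commutator_mem_commutator (Subgroup.mem_top _) (Subgroup.mem_top _)
    rw [eq_top_iff]
    intro A _
    have h4 : A ∈ commutator Sp := by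
      rw [hperf]
      trivial
    have h5 : E A ∈ N' := h1 (h3 h4)
    obtain ⟨B, hB, hBA⟩ := h5
    have : B = A := E.injective hBA
    rwa [← this]

/-- The simplicity theorem. -/
theorem psp_simple [Fintype F] (hm : 2 ≤ m) (h : m = 2 → 3 ≤ Fintype.card F) : IsSimpleGroup (Cfsg.PSp m F) := by
  classical
  have hperf : commutator Sp = ⊤ := sp_perfect (by
    by_cases h3 : 3 ≤ m
    · exact Or.inl h3
    · exact Or.inr (Or.inl ⟨by omega, h (by omega)⟩))
  refine isSimple_quotient_center ?_ (sp_normal (by omega) hperf)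
  intro hcen
  have h1 : commutator Sp = ⊥ := by
    rw [eq_bot_iff, commutator_def, Subgroup.commutator_le]
    intro a _ b _
    rw [Subgroup.mem_bot, commutatorElement_eq_one_iff_mul_comm]
    have : a ∈ Subgroup.center Sp := by
      rw [hcen]
      trivial
    exact (Subgroup.mem_center_iff.mp this b).symm
  rw [hperf] at h1
  have h2 : tv (Pi.single (Sum.inl ⟨0, by omega⟩) 1 : Vv) (1 : F) = 1 := by
    have : tv (Pi.single (Sum.inl ⟨0, by omega⟩) 1 : Vv) (1 : F) ∈ (⊤ : Subgroup Sp) := trivial
    rw [h1] at this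
    exact this
  have h3 := congrArg (fun A : Sp => (A : Mm) *ᵥ (Pi.single (Sum.inr ⟨0, by omega⟩) 1 : Vv)) h2
  simp only [tv_mulVec] at h3
  have h4 := congrFun h3 (Sum.inl ⟨0, by omega⟩)
  simp [sympForm_apply, Pi.single_apply] at h4

end Cfsg.Agent.Lib.Classical
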