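/-
Simplicity of PΩ in dimension at least seven, by Iwasawa's criterion on the singular points.
-/
import Mathlib
import Cfsg.Agent.Lib.Classical.OrthSing
import Cfsg.Agent.Lib.Classical.SpSimple
import Cfsg.Agent.Lib.Classical.RingCongr

set_option autoImplicit false
set_option linter.unusedSectionVars false

namespace Cfsg.Agent.Lib.Classical.Orth

open Cfsg.Agent.Lib.Classical.Witt Cfsg.Agent.Lib.Classical.Abs
open scoped commutatorElement LinearAlgebra.Projectivization Pointwise
open Module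

local notation "P" => QuadraticMap.polarBilin

section abstract

variable {F V : Type*} [Field F] [AddCommGroup V] [Module F V] {Q : QuadraticForm F V}

/-- Ω as a subgroup. -/
abbrev KK (Q : QuadraticForm F V) : Subgroup (OG Q) := commutator (OG Q)

lemma K_smul (g : KK Q) (v : V) : g • v = g.1.1 v := rfl

lemma K_ne_zero (g : KK Q) {v : V} (hv : v ≠ 0) : g.1.1 v ≠ 0 := by
  simpa using hv

lemma Q_rep_iff {v : V} (hv : v ≠ 0) : Q (Projectivization.mk F v hv).rep = 0 ↔ Q v = 0 := by
  obtain ⟨a, ha⟩ := Projectivization.exists_smul_eq_mk_rep F v hv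
  rw [← ha]
  have : (a • v) = (a : F) • v := rfl
  rw [this, Q_smul]
  have ha0 : (a : F) ≠ 0 := a.ne_zero
  simp [ha0]

/-- The singular points. -/
def singP (Q : QuadraticForm F V) : SubMulAction (KK Q) (ℙ F V) where
  carrier := {p | Q p.rep = 0}
  smul_mem' g p hp := by
    have h1 : Q p.rep = 0 := hp
    have h3 : g • p = Projectivization.mk F (g • p.rep) (by
        rw [K_smul]
        exact K_ne_zero g p.rep_nonzero) := by
      exact congrArg (g • ·) p.mk_rep.symm
    change Q (g • p).rep = 0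
    rw [h3, Q_rep_iff, K_smul]
    have := OG_pres g.1 p.rep
    rw [this, h1]

/-- A singular point. -/
def pt (v : V) (hv : v ≠ 0) (hs : Q v = 0) : singP Q :=
  ⟨Projectivization.mk F v hv, (Q_rep_iff hv).mpr hs⟩

lemma exists_pt (p : singP Q) : ∃ v hv hs, p = pt (Q := Q) v hv hs :=
  ⟨p.1.rep, p.1.rep_nonzero, p.2, Subtype.ext p.1.mk_rep.symm⟩

lemma pt_congr {v w : V} (h : v = w) (hv : v ≠ 0) (hs : Q v = 0) (hw : w ≠ 0) (ht : Q w = 0) :
    pt (Q := Q) v hv hs = pt w hw ht := by
  subst h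
  rfl

lemma smul_pt (g : KK Q) {v : V} (hv : v ≠ 0) (hs : Q v = 0) (hgv : g.1.1 v ≠ 0) (hgs : Q (g.1.1 v) = 0) :
    g • pt (Q := Q) v hv hs = pt (g.1.1 v) hgv hgs :=
  Subtype.ext (Projectivization.smul_mk (K := F) g hv)

lemma pt_eq_iff {v w : V} (hv : v ≠ 0) (hs : Q v = 0) (hw : w ≠ 0) (ht : Q w = 0) :
    pt (Q := Q) v hv hs = pt w hw ht ↔ ∃ a : Fˣ, a • w = v := by
  constructor
  · intro h
    exact (Projectivization.mk_eq_mk_iff _ _ _ _ _).mp (congrArg Subtype.val h)
  · intro h
    exact Subtype.ext ((Projectivization.mk_eq_mk_iff _ _ _ _ _).mpr h)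

lemma pt_smul {v : V} {c : F} (hc : c ≠ 0) (hv : v ≠ 0) (hs : Q v = 0) (hcv : c • v ≠ 0) (hcs : Q (c • v) = 0) :
    pt (Q := Q) (c • v) hcv hcs = pt v hv hs := by
  rw [pt_eq_iff]
  exact ⟨Units.mk0 c hc, rfl⟩

variable [FiniteDimensional F V]

local notation "orth" => LinearMap.BilinForm.orthogonal (P Q)

/-- A fixed point criterion. -/
lemma sg_fix {u y x : V} (hu : Q u = 0) (hy : P Q u y = 0) (h1 : P Q u x = 0) (h3 : P Q y x = 0) :
    (sg Q u y).1 x = x := by
  rw [sg_apply hu hy, h1, h3]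
  simp

variable [Fintype F] (hQ : (P Q).Nondegenerate) (hn : 5 ≤ finrank F V)

/-- Siegel elements in Ω. -/
noncomputable def sgK {a w : V} (ha : Q a = 0) (hw : P Q a w = 0) : KK Q :=
  ⟨sg Q a w, sg_mem_comm hQ hn ha hw⟩

include hQ hn in
/-- Block lemma: a fixed point and a move. -/
lemma block_move {B : Set (singP Q)} (hB : MulAction.IsBlock (KK Q) B) {u y a b b' : V}
    (hu : Q u = 0) (hy : P Q u y = 0) (ha : a ≠ 0) (ha' : Q a = 0) (hb : b ≠ 0) (hb' : Q b = 0)
    (hbn : b' ≠ 0) (hbs : Q b' = 0) (h1 : pt (Q := Q) a ha ha' ∈ B) (h3 : pt (Q := Q) b hb hb' ∈ B)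
    (hfix : (sg Q u y).1 a = a) (hmove : (sg Q u y).1 b = b') : pt (Q := Q) b' hbn hbs ∈ B := by
  let g : KK Q := sgK hQ hn hu hy
  have hga : g.1.1 a = a := hfix
  have hgb : g.1.1 b = b' := hmove
  have hfix' : g • pt (Q := Q) a ha ha' = pt a ha ha' := by
    rw [smul_pt g ha ha' (by rw [hga]; exact ha) (by rw [hga]; exact ha')]
    exact pt_congr hga _ _ _ _
  have hB' := hB.smul_eq_of_mem (g := g) h1 (by rw [hfix']; exact h1)
  have hmem := Set.smul_mem_smul_set (a := g) h3
  rw [hB', smul_pt g hb hb' (by rw [hgb]; exact hbn) (by rw [hgb]; exact hbs)] at hmem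
  rwa [pt_congr hgb _ _ hbn hbs] at hmem

include hQ hn in
lemma block_a0 {B : Set (singP Q)} (hB : MulAction.IsBlock (KK Q) B) {a b c : V}
    (ha : a ≠ 0) (ha' : Q a = 0) (hb : b ≠ 0) (hb' : Q b = 0) (hc : c ≠ 0) (hc' : Q c = 0)
    (h1 : pt (Q := Q) a ha ha' ∈ B) (h3 : pt (Q := Q) b hb hb' ∈ B) (hab : P Q a b = 1) (hac : P Q a c = 1) :
    pt (Q := Q) c hc hc' ∈ B := by
  have hd : P Q a (c - b) = 0 := by rw [map_sub, hab, hac, sub_self]
  have hy : P Q a ((P Q a b)⁻¹ • (c - b)) = 0 := by rw [map_smul, hd, smul_zero]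
  refine block_move hQ hn hB ha' hy ha ha' hb hb' hc hc' h1 h3 ?_ ?_
  · apply sg_fix ha' hy (pol_self_of ha')
    rw [pol_comm]
    exact hy
  · apply sg_move ha' hd (by rw [hb', hc'])
    rw [hab]
    exact one_ne_zero

include hQ hn in
/-- Step A. -/
lemma block_a {B : Set (singP Q)} (hB : MulAction.IsBlock (KK Q) B) {a b c : V}
    (ha : a ≠ 0) (ha' : Q a = 0) (hb : b ≠ 0) (hb' : Q b = 0) (hc : c ≠ 0) (hc' : Q c = 0)
    (h1 : pt (Q := Q) a ha ha' ∈ B) (h3 : pt (Q := Q) b hb hb' ∈ B) (hab : P Q a b ≠ 0) (hac : P Q a c ≠ 0) :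
    pt (Q := Q) c hc hc' ∈ B := by
  have hb1 : (P Q a b)⁻¹ • b ≠ 0 := smul_ne_zero (inv_ne_zero hab) hb
  have hb2 : Q ((P Q a b)⁻¹ • b) = 0 := by rw [Q_smul, hb', mul_zero]
  have hc1 : (P Q a c)⁻¹ • c ≠ 0 := smul_ne_zero (inv_ne_zero hac) hc
  have hc2 : Q ((P Q a c)⁻¹ • c) = 0 := by rw [Q_smul, hc', mul_zero]
  have h4 : pt (Q := Q) _ hb1 hb2 ∈ B := by
    rw [pt_smul (inv_ne_zero hab) hb hb']
    exact h3
  have h5 := block_a0 hQ hn hB ha ha' hb1 hb2 hc1 hc2 h1 h4
    (by rw [map_smul, smul_eq_mul, inv_mul_cancel₀ hab]) (by rw [map_smul, smul_eq_mul, inv_mul_cancel₀ hac])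
  rwa [pt_smul (inv_ne_zero hac) hc hc'] at h5

include hQ hn in
/-- Step B. -/
lemma block_b {B : Set (singP Q)} (hB : MulAction.IsBlock (KK Q) B) {a b : V}
    (ha : a ≠ 0) (ha' : Q a = 0) (hb : b ≠ 0) (hb' : Q b = 0)
    (h1 : pt (Q := Q) a ha ha' ∈ B) (h3 : pt (Q := Q) b hb hb' ∈ B) (hab : P Q a b ≠ 0) :
    B = Set.univ := by
  rw [Set.eq_univ_iff_forall]
  intro p
  obtain ⟨c, hc, hc', rfl⟩ := exists_pt p
  by_cases hac : P Q a c = 0
  · by_cases hspan : c ∈ Submodule.span F {a}
    · obtain ⟨t, ht⟩ := Submodule.mem_span_singleton.mp hspan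
      subst ht
      have ht0 : t ≠ 0 := by
        rintro rfl
        simp at hc
      rwa [pt_smul ht0 ha ha']
    · have hspan' : a ∉ Submodule.span F {c} := by
        intro h
        obtain ⟨t, ht⟩ := Submodule.mem_span_singleton.mp h
        have ht0 : t ≠ 0 := by
          rintro rfl
          rw [zero_smul] at ht
          exact ha ht.symm
        apply hspan
        refine Submodule.mem_span_singleton.mpr ⟨t⁻¹, ?_⟩
        rw [← ht, smul_smul, inv_mul_cancel₀ ht0, one_smul]
      obtain ⟨x₁, h4, h5⟩ := exists_pair hQ hspan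
      obtain ⟨x₂, h6, h7⟩ := exists_pair hQ hspan'
      set x := x₁ + x₂ with hx
      have hax : P Q a x = 1 := by rw [hx, map_add, h4, h7, zero_add]
      have hcx : P Q c x = 1 := by rw [hx, map_add, h5, h6, add_zero]
      set d := x - Q x • a with hd
      have hQd : Q d = 0 := by
        rw [hd, Q_sub, Q_smul, ha', map_smul, pol_comm Q x a, hax]
        simp
      have had : P Q a d = 1 := by
        rw [hd, map_sub, map_smul, pol_self_of ha', hax]
        simp
      have hcd : P Q c d = 1 := by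
        rw [hd, map_sub, map_smul, hcx, pol_comm Q c a, hac]
        simp
      have hd0 : d ≠ 0 := by
        rintro h
        rw [h, map_zero] at had
        exact zero_ne_one had
      have h8 : pt (Q := Q) d hd0 hQd ∈ B :=
        block_a hQ hn hB ha ha' hb hb' hd0 hQd h1 h3 hab (by rw [had]; exact one_ne_zero)
      refine block_a hQ hn hB hd0 hQd ha ha' hc hc' h8 h1 ?_ ?_
      · rw [pol_comm, had]
        exact one_ne_zero
      · rw [pol_comm, hcd]
        exact one_ne_zero
  · exact block_a hQ hn hB ha ha' hb hb' hc hc' h1 h3 hab hac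

include hQ hn in
/-- Step C. -/
lemma block_c (hn7 : 7 ≤ finrank F V) {B : Set (singP Q)} (hB : MulAction.IsBlock (KK Q) B) {a b : V}
    (ha : a ≠ 0) (ha' : Q a = 0) (hb : b ≠ 0) (hb' : Q b = 0)
    (h1 : pt (Q := Q) a ha ha' ∈ B) (h3 : pt (Q := Q) b hb hb' ∈ B) (hne : pt (Q := Q) a ha ha' ≠ pt b hb hb') :
    B = Set.univ := by
  by_cases hab : P Q a b = 0
  · have hspan : b ∉ Submodule.span F {a} := by
      intro h
      obtain ⟨t, ht⟩ := Submodule.mem_span_singleton.mp h
      subst ht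
      have ht0 : t ≠ 0 := by
        rintro rfl
        simp at hb
      exact hne (pt_smul ht0 ha ha' _ _).symm
    obtain ⟨x, h4, h5⟩ := exists_pair hQ hspan
    set b' := x - Q x • b with hb'def
    have hQb' : Q b' = 0 := by
      rw [hb'def, Q_sub, Q_smul, hb', map_smul, pol_comm Q x b, h5]
      simp
    have hbb' : P Q b b' = 1 := by
      rw [hb'def, map_sub, map_smul, pol_self_of hb', h5]
      simp
    have hab' : P Q a b' = 0 := by
      rw [hb'def, map_sub, map_smul, hab, h4]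
      simp
    have hb'0 : b' ≠ 0 := by
      rintro h
      rw [h, map_zero] at hbb'
      exact zero_ne_one hbb'
    set W := Submodule.span F {a, b - b'} with hW
    have hr : finrank F W ≤ 2 := finrank_span_pair_le _ _
    have hbW : b ∉ W := by
      intro h
      obtain ⟨α, β, hαβ⟩ := Submodule.mem_span_pair.mp h
      have h6 : P Q b (α • a + β • (b - b')) = 0 := by
        rw [hαβ, pol_self_of hb']
      rw [map_add, map_smul, map_smul, map_sub, pol_self_of hb', hbb', pol_comm Q b a, hab] at h6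
      have hβ : β = 0 := by simpa using h6
      subst hβ
      apply hspan
      rw [zero_smul, add_zero] at hαβ
      exact Submodule.mem_span_singleton.mpr ⟨α, hαβ⟩
    obtain ⟨u, hu, hQu, hs⟩ := exists_sing hQ W (by omega) hbW
    obtain ⟨hua, hud⟩ := mem_orth_pair.mp hu
    have hd : P Q u (b' - b) = 0 := by
      have : b' - b = -(b - b') := by abel
      rw [this, map_neg, pol_comm Q u, hud, neg_zero]
    have hy : P Q u ((P Q u b)⁻¹ • (b' - b)) = 0 := by rw [map_smul, hd, smul_zero]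
    have h8 : pt (Q := Q) b' hb'0 hQb' ∈ B := by
      refine block_move hQ hn hB hQu hy ha ha' hb hb' hb'0 hQb' h1 h3 ?_ ?_
      · apply sg_fix hQu hy (by rw [pol_comm]; exact hua)
        rw [map_smul, LinearMap.smul_apply, map_sub, LinearMap.sub_apply, pol_comm Q b' a, hab', pol_comm Q b a,
          hab]
        simp
      · exact sg_move hQu hd (by rw [hb', hQb']) hs
    exact block_b hQ hn hB hb hb' hb'0 hQb' h3 h8 (by rw [hbb']; exact one_ne_zero)
  · exact block_b hQ hn hB ha ha' hb hb' h1 h3 hab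

include hQ hn in
/-- Ω is transitive on singular points. -/
lemma sing_trans {a b : V} (ha : a ≠ 0) (ha' : Q a = 0) (hb : b ≠ 0) (hb' : Q b = 0) :
    ∃ g : KK Q, g • pt (Q := Q) a ha ha' = pt b hb hb' := by
  by_cases hne : pt (Q := Q) a ha ha' = pt b hb hb'
  · exact ⟨1, by rw [one_smul, hne]⟩
  · have hnot : a ∉ Submodule.span F {b - a} := by
      intro h
      obtain ⟨t, ht⟩ := Submodule.mem_span_singleton.mp h
      have ht0 : t ≠ 0 := by
        rintro rfl
        rw [zero_smul] at ht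
        exact ha ht.symm
      have ht1 : t • b = (1 + t) • a := by
        have h' : t • b - t • a = a := by rw [← smul_sub]; exact ht
        calc t • b = (t • b - t • a) + t • a := by abel
          _ = a + t • a := by rw [h']
          _ = _ := by rw [add_smul, one_smul]
      have ht2 : 1 + t ≠ 0 := by
        intro h0
        rw [h0, zero_smul] at ht1
        exact (smul_ne_zero ht0 hb) ht1
      apply hne
      rw [pt_eq_iff]
      refine ⟨Units.mk0 ((1 + t)⁻¹ * t) (mul_ne_zero (inv_ne_zero ht2) ht0), ?_⟩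
      change ((1 + t)⁻¹ * t) • b = a
      rw [mul_smul, ht1, smul_smul, inv_mul_cancel₀ ht2, one_smul]
    obtain ⟨u, y, hu, hy, hm⟩ := exists_move_sg hQ hn (by rw [ha', hb']) hnot
    refine ⟨sgK hQ hn hu hy, ?_⟩
    have hm' : (sgK hQ hn hu hy).1.1 a = b := hm
    rw [smul_pt _ ha ha' (by rw [hm']; exact hb) (by rw [hm']; exact hb')]
    exact pt_congr hm' _ _ _ _

include hQ hn in
/-- Ω is primitive on singular points in dimension at least seven. -/
theorem sing_preprimitive (hn7 : 7 ≤ finrank F V) : MulAction.IsPreprimitive (KK Q) (singP Q) := by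
  haveI hT : MulAction.IsPretransitive (KK Q) (singP Q) := ⟨fun p q => by
      obtain ⟨a, ha, ha', rfl⟩ := exists_pt p
      obtain ⟨b, hb, hb', rfl⟩ := exists_pt q
      exact sing_trans hQ hn ha ha' hb hb'⟩
  refine ⟨?_⟩
  intro B hB
  by_cases hsub : B.Subsingleton
  · exact Or.inl hsub
  right
  rw [Set.not_subsingleton_iff] at hsub
  obtain ⟨p, hp, q, hq, hpq⟩ := hsub
  obtain ⟨a, ha, ha', rfl⟩ := exists_pt p
  obtain ⟨b, hb, hb', rfl⟩ := exists_pt q
  exact block_c hQ hn hn7 hB ha ha' hb hb' hp hq hpq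

omit [FiniteDimensional F V] [Fintype F] in
/-- Two orthogonal eigenvectors have the same eigenvalue. -/
lemma same_of_orth {g : OG Q} {a b : V} (ha : a ≠ 0) (ha' : Q a = 0) (hb : b ≠ 0) (hb' : Q b = 0)
    (hab : P Q a b = 0) {α β : F} (h1 : g.1 a = α • a) (h3 : g.1 b = β • b)
    (hs : ∀ c, c ≠ 0 → Q c = 0 → ∃ μ : F, g.1 c = μ • c) : α = β := by
  by_cases h0 : a + b = 0
  · have hba : b = -a := by
      rw [eq_neg_iff_add_eq_zero, add_comm]
      exact h0
    have h4 : β • b = α • b := by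
      rw [← h3, hba, map_neg, h1, smul_neg]
    have h5 : (β - α) • b = 0 := by
      rw [sub_smul, h4, sub_self]
    have h6 := (smul_eq_zero.mp h5).resolve_right hb
    exact (sub_eq_zero.mp h6).symm
  · obtain ⟨μ, hμ⟩ := hs (a + b) h0 (by rw [Q_add, ha', hb', hab]; simp)
    rw [map_add, h1, h3] at hμ
    have h4 : (α - μ) • a = (μ - β) • b := by
      rw [smul_add] at hμ
      have h' : (α - μ) • a - (μ - β) • b = (α • a + β • b) - (μ • a + μ • b) := by
        (module)
      rw [hμ, sub_self] at h'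
      exact sub_eq_zero.mp h'
    by_cases hαμ : α = μ
    · rw [hαμ, sub_self, zero_smul] at h4
      have h6 := (smul_eq_zero.mp h4.symm).resolve_right hb
      rw [hαμ]
      exact sub_eq_zero.mp h6
    · have hne : α - μ ≠ 0 := sub_ne_zero.mpr hαμ
      have h5 : a = ((α - μ)⁻¹ * (μ - β)) • b := by
        rw [mul_smul, ← h4, smul_smul, inv_mul_cancel₀ hne, one_smul]
      have h6 : α • a = β • a := by
        rw [← h1]
        conv_lhs => rw [h5]
        rw [map_smul, h3, smul_comm]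
        congr 1
        exact h5.symm
      have h7 : (α - β) • a = 0 := by
        rw [sub_smul, h6, sub_self]
      have h8 := (smul_eq_zero.mp h7).resolve_right ha
      exact sub_eq_zero.mp h8

include hQ hn in
/-- All singular vectors have the same eigenvalue. -/
lemma same_eig_sing {g : OG Q} {a b : V} (ha : a ≠ 0) (ha' : Q a = 0) (hb : b ≠ 0) (hb' : Q b = 0)
    {α β : F} (h1 : g.1 a = α • a) (h3 : g.1 b = β • b)
    (hs : ∀ c, c ≠ 0 → Q c = 0 → ∃ μ : F, g.1 c = μ • c) : α = β := by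
  by_cases hab : P Q a b = 0
  · exact same_of_orth ha ha' hb hb' hab h1 h3 hs
  · have hr : finrank F (orth (Submodule.span F {a, b})) + finrank F (Submodule.span F {a, b}) = finrank F V := by
      have h4 := LinearMap.BilinForm.finrank_orthogonal hQ (Submodule.span F {a, b})
      have h5 := Submodule.finrank_le (Submodule.span F {a, b})
      omega
    have hr2 : finrank F (Submodule.span F {a, b}) ≤ 2 := finrank_span_pair_le _ _
    obtain ⟨c, hc, hc0, hc'⟩ := exists_singular (Q := Q) (orth (Submodule.span F {a, b})) (by omega)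
    obtain ⟨h4, h5⟩ := mem_orth_pair.mp hc
    obtain ⟨μ, hμ⟩ := hs c hc0 hc'
    rw [same_of_orth ha ha' hc0 hc' h4 h1 hμ hs]
    exact same_of_orth hc0 hc' hb hb' (by rw [pol_comm]; exact h5) hμ h3 hs

include hQ hn in
/-- An isometry fixing all singular points is scalar. -/
theorem scalar_of_fix (g : OG Q) (hs : ∀ c, c ≠ 0 → Q c = 0 → ∃ μ : F, g.1 c = μ • c) :
    ∃ c : F, ∀ x, g.1 x = c • x := by
  obtain ⟨a, -, ha, ha'⟩ := exists_singular (Q := Q) ⊤ (by rw [finrank_top]; omega)
  obtain ⟨α, hα⟩ := hs a ha ha'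
  refine ⟨α, fun x => ?_⟩
  have hx : x ∈ orth (⊥ : Submodule F V) := by
    rw [mem_orth]
    intro u hu
    rw [Submodule.mem_bot] at hu
    rw [hu]
    simp
  have h1 := span_singular hQ ⊥ (by rw [finrank_bot]; omega) hx
  clear hx
  induction h1 using Submodule.span_induction with
  | mem s hs' =>
    by_cases hs0 : s = 0
    · rw [hs0]
      simp
    · obtain ⟨μ, hμ⟩ := hs s hs0 hs'.2
      rw [same_eig_sing hQ hn ha ha' hs0 hs'.2 hα hμ hs]
      exact hμ
  | zero => simp
  | add x y _ _ h1 h3 => rw [map_add, h1, h3, smul_add]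
  | smul d x _ h1 => rw [map_smul, h1, smul_comm]

/-- The root subgroups. -/
def Ta (Q : QuadraticForm F V) (a : V) (ha : Q a = 0) : Subgroup (OG Q) where
  carrier := {g | ∃ w, P Q a w = 0 ∧ g = sg Q a w}
  mul_mem' := by
    rintro _ _ ⟨w, hw, rfl⟩ ⟨w', hw', rfl⟩
    exact ⟨w + w', by rw [map_add, hw, hw', add_zero], sg_add ha hw hw'⟩
  one_mem' := ⟨0, map_zero _, (sg_zero a).symm⟩
  inv_mem' := by
    rintro _ ⟨w, hw, rfl⟩
    exact ⟨-w, by rw [map_neg, hw, neg_zero], sg_neg ha hw⟩

lemma mem_T {a : V} {ha : Q a = 0} {g : KK Q} :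
    g ∈ (Ta Q a ha).subgroupOf (KK Q) ↔ ∃ w, P Q a w = 0 ∧ g.1 = sg Q a w :=
  Subgroup.mem_subgroupOf

omit [FiniteDimensional F V] [Fintype F] in
lemma sing_rep (p : singP Q) : Q p.1.rep = 0 := p.2

/-- The Iwasawa structure. -/
noncomputable def iwaO : MulAction.IwasawaStructure (KK Q) (singP Q) where
  T p := (Ta Q p.1.rep (sing_rep p)).subgroupOf (KK Q)
  is_comm p := by
    refine ⟨⟨?_⟩⟩
    rintro ⟨x, hx⟩ ⟨y, hy⟩
    obtain ⟨w, hw, h1⟩ := mem_T.mp hx
    obtain ⟨w', hw', h3⟩ := mem_T.mp hy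
    apply Subtype.ext
    apply Subtype.ext
    change x.1 * y.1 = y.1 * x.1
    rw [h1, h3]
    exact sg_comm (sing_rep p) hw hw'
  is_conj g p := by
    have hpv : Q p.1.rep = 0 := sing_rep p
    have hgv : Q (g.1.1 p.1.rep) = 0 := by rw [OG_pres, hpv]
    obtain ⟨t, ht0, hr⟩ : ∃ t : F, t ≠ 0 ∧ ((g • p : singP Q) : ℙ F V).rep = t • g.1.1 p.1.rep := by
      have h3 : ((g • p : singP Q) : ℙ F V) = Projectivization.mk F (g • p.1.rep) (by
          rw [K_smul]
          exact K_ne_zero g p.1.rep_nonzero) := by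
        change g • p.1 = _
        exact congrArg (g • ·) p.1.mk_rep.symm
      obtain ⟨a, ha⟩ := Projectivization.exists_smul_eq_mk_rep F (g • p.1.rep) (by
          rw [K_smul]
          exact K_ne_zero g p.1.rep_nonzero)
      exact ⟨a, a.ne_zero, by rw [h3, ← ha]; rfl⟩
    ext x
    rw [mem_T, Subgroup.mem_smul_pointwise_iff_exists]
    constructor
    · rintro ⟨w, hw, hx⟩
      rw [hr] at hw hx
      have hw1 : P Q (g.1.1 p.1.rep) w = 0 := by
        rw [map_smul, LinearMap.smul_apply, smul_eq_mul] at hw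
        exact (mul_eq_zero.mp hw).resolve_left ht0
      have hw2 : P Q p.1.rep (g.1⁻¹.1 w) = 0 := by
        have := OG_polar g.1⁻¹ (g.1.1 p.1.rep) w
        rw [inv_apply_self', hw1] at this
        exact this
      refine ⟨g⁻¹ * x * g, mem_T.mpr ⟨t • g.1⁻¹.1 w, by rw [map_smul, hw2, smul_zero], ?_⟩, ?_⟩
      · have h5 := sg_conj hgv (w := t • w) (by rw [map_smul, hw1, smul_zero]) g.1⁻¹
        rw [inv_inv, inv_apply_self', map_smul] at h5
        rw [sg_smul hgv hw1] at hx
        change g.1⁻¹ * x.1 * g.1 = _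
        rw [hx]
        exact h5
      · rw [MulAut.smul_def, MulAut.conj_apply]
        group
    · rintro ⟨y, hy, rfl⟩
      obtain ⟨u, hu, hy⟩ := mem_T.mp hy
      rw [hr]
      have hgu : P Q (g.1.1 p.1.rep) (g.1.1 u) = 0 := by rw [OG_polar, hu]
      refine ⟨t⁻¹ • g.1.1 u, ?_, ?_⟩
      · rw [map_smul, map_smul, LinearMap.smul_apply, hgu]
        simp
      · rw [MulAut.smul_def, MulAut.conj_apply]
        change g.1 * y.1 * g.1⁻¹ = _
        rw [hy, sg_conj hpv hu, sg_smul hgv (by rw [map_smul, hgu, smul_zero]) t, smul_smul,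
          mul_inv_cancel₀ ht0, one_smul]
  is_generator := by
    rw [eq_top_iff]
    rintro g -
    have hg : g.1 ∈ EE Q := by
      rw [EE_eq_comm hQ hn]
      exact g.2
    have key : ∀ x ∈ EE Q, ∃ hx : x ∈ KK Q, (⟨x, hx⟩ : KK Q) ∈ ⨆ p : singP Q, (Ta Q p.1.rep (sing_rep p)).subgroupOf (KK Q) := by
      intro x hx
      induction hx using Subgroup.closure_induction with
      | mem x hx =>
        obtain ⟨a, w, ha, hw, rfl⟩ := hx
        refine ⟨sg_mem_comm hQ hn ha hw, ?_⟩
        by_cases ha0 : a = 0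
        · subst ha0
          have : (⟨sg Q 0 w, sg_mem_comm hQ hn ha hw⟩ : KK Q) = 1 := Subtype.ext (sg_of_zero w)
          rw [this]
          exact Subgroup.one_mem _
        · refine Subgroup.mem_iSup_of_mem (pt a ha0 ha) (mem_T.mpr ?_)
          obtain ⟨t, ht⟩ := Projectivization.exists_smul_eq_mk_rep F a ha0
          have ht0 : (t : F) ≠ 0 := t.ne_zero
          have hrep : (pt (Q := Q) a ha0 ha).1.rep = (t : F) • a := ht.symm
          rw [hrep]
          refine ⟨(t : F)⁻¹ • w, ?_, ?_⟩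
          · simp only [map_smul, LinearMap.smul_apply, hw, smul_zero]
          · rw [sg_smul ha (by rw [map_smul, hw, smul_zero]), smul_smul, mul_inv_cancel₀ ht0, one_smul]
      | one => exact ⟨Subgroup.one_mem _, Subgroup.one_mem _⟩
      | mul x y _ _ h1 h3 =>
        obtain ⟨a1, a2⟩ := h1
        obtain ⟨b1, b2⟩ := h3
        exact ⟨Subgroup.mul_mem _ a1 b1, Subgroup.mul_mem _ a2 b2⟩
      | inv x _ h1 =>
        obtain ⟨a1, a2⟩ := h1
        exact ⟨Subgroup.inv_mem _ a1, Subgroup.inv_mem _ a2⟩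
    obtain ⟨_, h⟩ := key _ hg
    exact h

set_option synthInstance.maxHeartbeats 400000 in
include hQ hn in
/-- Normal subgroups of Ω. -/
theorem K_normal (hn7 : 7 ≤ finrank F V) (N : Subgroup (KK Q)) (hN : N.Normal) :
    N ≤ Subgroup.center (KK Q) ∨ N = ⊤ := by
  haveI := sing_preprimitive hQ hn hn7
  by_cases hfix : MulAction.fixedPoints N (singP Q) = Set.univ
  · left
    intro g hg
    have hs : ∀ c, c ≠ 0 → Q c = 0 → ∃ μ : F, g.1.1 c = μ • c := by
      intro c hc hc'
      have h1 : pt (Q := Q) c hc hc' ∈ MulAction.fixedPoints N (singP Q) := by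
        rw [hfix]
        trivial
      have h3 : g • pt (Q := Q) c hc hc' = pt c hc hc' := h1 ⟨g, hg⟩
      rw [smul_pt g hc hc' (K_ne_zero g hc) (by rw [OG_pres]; exact hc'), pt_eq_iff] at h3
      obtain ⟨a, ha⟩ := h3
      exact ⟨a, ha.symm⟩
    obtain ⟨c, hc⟩ := scalar_of_fix hQ hn g.1 hs
    rw [Subgroup.mem_center_iff]
    intro h
    apply Subtype.ext
    apply OG_ext
    intro x
    change h.1.1 (g.1.1 x) = g.1.1 (h.1.1 x)
    rw [hc, hc, map_smul]
  · right
    have h1 := (iwaO hQ hn).commutator_le N hfix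
    rw [comm_perfect hQ hn] at h1
    exact eq_top_iff.mpr h1

include hQ hn in
/-- Ω modulo its centre is simple. -/
theorem K_quot_simple (hn7 : 7 ≤ finrank F V) : IsSimpleGroup (KK Q ⧸ Subgroup.center (KK Q)) := by
  refine isSimple_quotient_center ?_ (K_normal hQ hn hn7)
  intro hcen
  have h1 : commutator (KK Q) = ⊥ := by
    rw [eq_bot_iff, commutator_def, Subgroup.commutator_le]
    intro a _ b _
    rw [Subgroup.mem_bot, commutatorElement_eq_one_iff_mul_comm]
    have : a ∈ Subgroup.center (KK Q) := by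
      rw [hcen]
      trivial
    exact (Subgroup.mem_center_iff.mp this b).symm
  rw [comm_perfect hQ hn] at h1
  obtain ⟨a, -, ha, ha'⟩ := exists_singular (Q := Q) ⊤ (by rw [finrank_top]; omega)
  obtain ⟨x, hx⟩ := exists_P_eq_one hQ ha
  -- a vector orthogonal to `a` outside its span
  have hr : finrank F (Submodule.span F {a}) ≤ 1 := finrank_sing_le _
  obtain ⟨w, hw, -, hwn⟩ := exists_singular_orth hQ (Submodule.span F {a}) (by omega)
  have hw' := mem_orth_singleton.mp hw
  have h3 : (⟨sg Q a w, sg_mem_comm hQ hn ha' hw'⟩ : KK Q) ∈ (⊥ : Subgroup (KK Q)) := by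
    rw [← h1]
    trivial
  have h4 : sg Q a w = 1 := congrArg Subtype.val (Subgroup.mem_bot.mp h3)
  have h5 : (sg Q a w).1 x = x := by rw [h4]; rfl
  rw [sg_apply ha' hw', hx, one_smul, mul_one] at h5
  apply hwn
  have h6 : w = (P Q w x + Q w) • a := by
    have : x + w - P Q w x • a - Q w • a - x = 0 := by
      rw [h5, sub_self]
    rw [add_smul]
    rw [← sub_eq_zero, ← this]
    abel
  rw [h6]
  exact Submodule.smul_mem _ _ (Submodule.mem_span_singleton_self a)

end abstract

section bridge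

variable {ι : Type} [Fintype ι] [DecidableEq ι] {F : Type*} [Field F] [Fintype F]

/-- Simplicity of PΩ in dimension at least seven. -/
theorem pomega_simple (Q : QuadraticForm F (ι → F)) (hQ : (P Q).Nondegenerate) (hn : 7 ≤ Fintype.card ι) :
    IsSimpleGroup (Cfsg.POmega F (⇑Q)) := by
  have hfr : 7 ≤ finrank F (ι → F) := by simpa using hn
  have := K_quot_simple hQ (by omega) hfr
  let e := omegaEquiv Q
  have hc : (Subgroup.center (Cfsg.Omega F (⇑Q))).map e.toMonoidHom = Subgroup.center (commutator (OG Q)) :=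
    Cfsg.Agent.Lib.Classical.RC.map_center_eq e
  exact (QuotientGroup.congr _ _ e hc).isSimpleGroup

end bridge

end Cfsg.Agent.Lib.Classical.Orth
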