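import Mathlib
import Cfsg.Prelude.Def_KGroupFacts

/-!
Counting automorphisms from the outer automorphism group.
-/

set_option autoImplicit false

namespace Cfsg.Agent.Lib.Classical.AutCount

/-- `|Aut G| = |Out G| · |G|` for a group with trivial centre. -/
theorem card_mulAut_eq {G : Type*} [Group G] [Finite G] (hc : Subgroup.center G = ⊥) :
    Nat.card (MulAut G) = Nat.card (Cfsg.Out G) * Nat.card G := by
  have hinj : Function.Injective (MulAut.conj : G →* MulAut G) := by
    rw [injective_iff_map_eq_one]
    intro g hg
    have : g ∈ Subgroup.center G := by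
      rw [Subgroup.mem_center_iff]
      intro x
      have h := congrArg (fun a : MulAut G => a x) hg
      simp only [MulAut.conj_apply, MulAut.one_apply] at h
      rw [mul_inv_eq_iff_eq_mul] at h
      exact h.symm
    rw [hc] at this
    exact Subgroup.mem_bot.mp this
  have h1 : Nat.card (Cfsg.Inn G) = Nat.card G :=
    (Nat.card_congr (MonoidHom.ofInjective hinj).toEquiv).symm
  have h2 := Subgroup.card_eq_card_quotient_mul_card_subgroup (Cfsg.Inn G)
  rw [h2, h1]

/-- A simple group which is not of prime order has trivial centre. -/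
theorem center_eq_bot_of_not_prime {G : Type*} [Group G] [Finite G] (hs : IsSimpleGroup G)
    (h : ¬ (Nat.card G).Prime) : Subgroup.center G = ⊥ := by
  rcases hs.eq_bot_or_eq_top_of_normal (Subgroup.center G) inferInstance with h1 | h1
  · exact h1
  · exfalso
    apply h
    letI : CommGroup G := Group.commGroupOfCenterEqTop h1
    exact IsSimpleGroup.prime_card

/-- Prime powers with exponent at least two dividing `r`. -/
theorem not_prime_of_pow_dvd {r q k : ℕ} (hq : 2 ≤ q) (hk : 2 ≤ k) (h : q ^ k ∣ r) : ¬ r.Prime := by
  intro hr
  rcases (Nat.dvd_prime hr).mp h with h1 | h1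
  · have : 2 ^ k ≤ q ^ k := Nat.pow_le_pow_left hq k
    have h2 : 1 < 2 ^ k := Nat.one_lt_two_pow (by omega)
    omega
  · rw [← h1] at hr
    exact Nat.Prime.not_prime_pow hk hr

/-- Order of a group with a surjection and given kernel. -/
theorem card_of_surjective {A B : Type*} [Group A] [Finite A] [Group B] (φ : A →* B) (hs : Function.Surjective φ) :
    Nat.card A = Nat.card φ.ker * Nat.card B := by
  have h1 := Subgroup.card_mul_index φ.ker
  rw [Subgroup.index_ker, MonoidHom.range_eq_top.mpr hs] at h1
  rw [← h1]
  congr 1
  exact Nat.card_congr Subgroup.topEquiv.toEquiv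

end Cfsg.Agent.Lib.Classical.AutCount
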