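import Mathlib
import Cfsg.Agent.Lib.Classical.AutCount
import Cfsg.Agent.Lib.Classical.SpCenter
import Cfsg.Agent.Lib.Classical.SpPerfect
import Cfsg.Agent.Lib.Known3.FieldAutPSp
import Cfsg.Agent.Lib.AutPSL.Out

/-!
The order of the automorphism group of `PSp_{2m}(F)`.
-/

set_option autoImplicit false
set_option linter.unusedVariables false
set_option linter.unusedSectionVars false

namespace Cfsg.Agent.Lib.Classical.AutCount

open Matrix Cfsg Cfsg.Agent.Lib.AutPSp Cfsg.Agent.Lib.Known3.FieldAut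
open scoped MatrixGroups

variable {F : Type*} [Field F] {m : ℕ}

local notation "ff" => Cfsg.sympForm m F

lemma mult_unique (hm : 1 ≤ m) {a b : F} (h : ∀ u v : VV m F, a * ff u v = b * ff u v) : a = b := by
  obtain ⟨x, hx⟩ := exists_f_ne' (ee_ne (F := F) (Sum.inl ⟨0, hm⟩ : II m))
  exact mul_right_cancel₀ hx (h _ x)

/-- The multiplier. -/
noncomputable def mltRaw (g : GSp m F) : Fˣ := Classical.choose g.2

lemma mltRaw_spec (g : GSp m F) (u v : VV m F) :
    ff (((g : GL (II m) F) : MM m F) *ᵥ u) (((g : GL (II m) F) : MM m F) *ᵥ v) = ((mltRaw g : Fˣ) : F) * ff u v :=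
  Classical.choose_spec g.2 u v

/-- The multiplier. -/
noncomputable def mlt (hm : 1 ≤ m) : GSp m F →* Fˣ where
  toFun g := mltRaw g
  map_one' := by
    apply Units.ext
    apply mult_unique hm
    intro u v
    have := mltRaw_spec (1 : GSp m F) u v
    simp only [OneMemClass.coe_one, Units.val_one, Matrix.one_mulVec] at this
    rw [← this, Units.val_one, one_mul]
  map_mul' := by
    intro g h
    apply Units.ext
    apply mult_unique hm
    intro u v
    have h1 := mltRaw_spec (g * h) u v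
    have h2 := mltRaw_spec g (((h : GL (II m) F) : MM m F) *ᵥ u) (((h : GL (II m) F) : MM m F) *ᵥ v)
    have h3 := mltRaw_spec h u v
    simp only [Subgroup.coe_mul, Units.val_mul, ← Matrix.mulVec_mulVec] at h1
    rw [← h1, h2, h3, Units.val_mul, mul_assoc]

lemma mlt_spec (hm : 1 ≤ m) (g : GSp m F) (u v : VV m F) :
    ff (((g : GL (II m) F) : MM m F) *ᵥ u) (((g : GL (II m) F) : MM m F) *ᵥ v) = ((mlt hm g : Fˣ) : F) * ff u v :=
  mltRaw_spec g u v

lemma mlt_surjective (hm : 1 ≤ m) : Function.Surjective (mlt (F := F) hm) := by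
  classical
  intro l
  let g : II m → F := fun a => Sum.elim (fun _ => (l : F)) (fun _ => 1) a
  have hg : ∀ a, g a ≠ 0 := by
    rintro (a | a)
    · exact l.ne_zero
    · exact one_ne_zero
  have hsim : ∀ u v, ff (gm (diagGL g hg) *ᵥ u) (gm (diagGL g hg) *ᵥ v) = (l : F) * ff u v :=
    diagGL_sim g hg (l : F) (by
      rintro (a | a) <;> simp [g])
  refine ⟨⟨diagGL g hg, ⟨l, hsim⟩⟩, ?_⟩
  apply Units.ext
  apply mult_unique hm
  intro u v
  rw [← mlt_spec hm]
  exact hsim u v

lemma card_ker_mlt (hm : 1 ≤ m) : Nat.card (mlt (F := F) hm).ker = Nat.card (SpG m F) := by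
  classical
  symm
  apply Nat.card_congr
  refine Equiv.ofBijective (fun s => ⟨spOf s, ?_⟩) ⟨?_, ?_⟩
  · rw [MonoidHom.mem_ker]
    apply Units.ext
    apply mult_unique hm
    intro u v
    rw [← mlt_spec hm, Units.val_one, one_mul]
    exact mem_symplecticGroup_iff_preserves.mp s.2 u v
  · intro a b h
    apply Subtype.ext
    have h1 := congrArg (fun x : (mlt (F := F) hm).ker => (((x : GSp m F) : GL (II m) F) : MM m F)) h
    exact h1
  · rintro ⟨g, hg⟩
    rw [MonoidHom.mem_ker] at hg
    have hmem : (((g : GL (II m) F) : MM m F)) ∈ SpG m F := by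
      rw [mem_symplecticGroup_iff_preserves]
      intro u v
      rw [mlt_spec hm, hg, Units.val_one, one_mul]
    refine ⟨⟨_, hmem⟩, ?_⟩
    apply Subtype.ext
    apply Subtype.ext
    apply Units.ext
    rfl

variable [Fintype F]

lemma card_GSp (hm : 1 ≤ m) : Nat.card (GSp m F) = Nat.card (SpG m F) * (Fintype.card F - 1) := by
  classical
  have h := card_of_surjective (mlt (F := F) hm) (mlt_surjective hm)
  rw [card_ker_mlt, Nat.card_eq_fintype_card (α := Fˣ), Fintype.card_units] at h
  exact h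

lemma card_ker_cP (hm : 1 ≤ m) : Nat.card (cP (m := m) (F := F)).ker = Fintype.card F - 1 := by
  classical
  rw [← Fintype.card_units, ← Nat.card_eq_fintype_card]
  symm
  apply Nat.card_congr
  refine Equiv.ofBijective (fun c => ⟨scS c, ?_⟩) ⟨?_, ?_⟩
  · rw [MonoidHom.mem_ker]
    exact cP_scS c
  · intro a b h
    apply sc_inj_sp hm
    have h1 := congrArg (fun x : (cP (m := m) (F := F)).ker => ((x : GSp m F) : GL (II m) F)) h
    exact h1
  · rintro ⟨t, ht⟩
    obtain ⟨c, hc⟩ := exists_sc_of_cP hm ht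
    refine ⟨c, ?_⟩
    apply Subtype.ext
    apply Subtype.ext
    exact hc.symm

lemma card_range_cP (hm : 1 ≤ m) : Nat.card (cP (m := m) (F := F)).range = Nat.card (SpG m F) := by
  have h1 := Subgroup.card_mul_index (cP (m := m) (F := F)).ker
  rw [Subgroup.index_ker, card_ker_cP hm, card_GSp hm] at h1
  have hq : 2 ≤ Fintype.card F := Fintype.one_lt_card
  rw [mul_comm (Fintype.card F - 1)] at h1
  exact Nat.eq_of_mul_eq_mul_right (by omega) h1

/-- An inner-diagonal automorphism which is a field automorphism is trivial. -/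
lemma field_of_cP_eq (hm : 1 ≤ m) (t : GSp m F) (τ : F ≃+* F) (h : (cP t : MulAut (PSp m F)) = fP τ) : τ = 1 := by
  classical
  obtain ⟨l, hl⟩ := t.2
  have key : ∀ u : VV m F, u ≠ 0 → ∃ μ : F, μ ≠ 0 ∧ vmap τ u = μ • (((t : GL (II m) F) : MM m F) *ᵥ u) := by
    intro u hu
    have h2 := congrArg (fun β : MulAut (PSp m F) => β (mk (tv u 1))) h
    simp only [cP_mk, fP_mk] at h2
    rw [sConj_tv t hl, sField_tv, map_one] at h2
    have hne : vmap τ u ≠ 0 := by
      intro h0
      apply hu
      funext i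
      have := congrFun h0 i
      simpa [vmap] using this
    exact tv_par hne one_ne_zero (rt_inj hm h2.symm)
  ext x
  let a : II m := Sum.inl ⟨0, hm⟩
  let b : II m := Sum.inr ⟨0, hm⟩
  have hab : a ≠ b := by simp [a, b]
  set T : MM m F := ((t : GL (II m) F) : MM m F) with hT
  obtain ⟨μa, hμa, ea⟩ := key (ee a) (ee_ne a)
  obtain ⟨μb, hμb, eb⟩ := key (ee b) (ee_ne b)
  rw [vmap_ee] at ea eb
  have hTa : T *ᵥ (ee a : VV m F) = μa⁻¹ • ee a := by
    have : μa⁻¹ • (ee a : VV m F) = μa⁻¹ • (μa • T *ᵥ ee a) := congrArg _ ea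
    rw [this, smul_smul, inv_mul_cancel₀ hμa, one_smul]
  have hTb : T *ᵥ (ee b : VV m F) = μb⁻¹ • ee b := by
    have : μb⁻¹ • (ee b : VV m F) = μb⁻¹ • (μb • T *ᵥ ee b) := congrArg _ eb
    rw [this, smul_smul, inv_mul_cancel₀ hμb, one_smul]
  have hx : ∀ y : F, y ≠ 0 → τ y = μa * y * μb⁻¹ := by
    intro y hy
    have hne : (ee a + y • ee b : VV m F) ≠ 0 := by
      intro h0
      have := congrFun h0 a
      simp [ee, Pi.single_apply, hab] at this
    obtain ⟨ν, hν, e⟩ := key _ hne
    rw [Matrix.mulVec_add, Matrix.mulVec_smul, hTa, hTb] at e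
    have e1 := congrFun e a
    have e2 := congrFun e b
    simp [vmap, ee, Pi.single_apply, hab, hab.symm] at e1 e2
    have hνa : ν = μa := by
      field_simp at e1
      exact e1.symm
    rw [e2, hνa]
    ring
  have h1 := hx 1 one_ne_zero
  rw [map_one, mul_one] at h1
  have hab' : μa = μb := by
    field_simp at h1
    exact h1.symm
  by_cases hy : x = 0
  · subst hy
    simp
  · have := hx x hy
    rw [hab'] at this
    rw [this]
    change _ = x
    field_simp

/-- The centre of `PSp` is trivial. -/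
lemma center_psp (h : 3 ≤ m ∨ (m = 2 ∧ 3 ≤ Fintype.card F) ∨ 4 ≤ Fintype.card F) (hs : IsSimpleGroup (PSp m F)) :
    Subgroup.center (PSp m F) = ⊥ := by
  rcases hs.eq_bot_or_eq_top_of_normal (Subgroup.center (PSp m F)) inferInstance with h1 | h1
  · exact h1
  · exfalso
    have hle : commutator (SpG m F) ≤ Subgroup.center (SpG m F) := by
      rw [commutator_def, Subgroup.commutator_le]
      intro a _ b _
      have h3 : mk a ∈ Subgroup.center (PSp m F) := by rw [h1]; exact Subgroup.mem_top _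
      have h4 := Subgroup.mem_center_iff.mp h3 (mk b)
      have h5 : (mk (a * b * a⁻¹ * b⁻¹) : PSp m F) = 1 := by
        rw [map_mul, map_mul, map_mul, map_inv, map_inv, ← h4]
        group
      exact (QuotientGroup.eq_one_iff _).mp h5
    have hper := sp_perfect (m := m) (F := F) h
    obtain ⟨x, hx⟩ := exists_ne (1 : PSp m F)
    obtain ⟨s, rfl⟩ := mk_surj x
    apply hx
    apply (QuotientGroup.eq_one_iff _).mpr
    apply hle
    rw [hper]
    exact Subgroup.mem_top _

/-- `|Aut(PSp)| = |Sp| · f`. -/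
theorem card_aut_psp {p f' : ℕ} [Fact p.Prime] [CharP F p] (hF : Fintype.card F = p ^ f') (hf : 1 ≤ f')
    (hm : 2 ≤ m) (h4 : m = 2 → p ≠ 2) :
    Nat.card (MulAut (PSp m F)) = Nat.gcd 2 (p ^ f' - 1) * f' * Nat.card (PSp m F) := by
  classical
  have hm1 : 1 ≤ m := by omega
  have hgal : Nat.card (F ≃+* F) = f' := by
    obtain ⟨e⟩ := Cfsg.Agent.Lib.AutPSL.exists_gal_iso hF hf
    rw [Nat.card_congr e.toEquiv, Nat.card_congr Multiplicative.toAdd, Nat.card_zmod]
  have hdec : ∀ β : MulAut (PSp m F), ∃ (g : GSp m F) (σ : F ≃+* F), β = cP g * fP σ := by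
    intro β
    obtain ⟨g, σ, hg, hI⟩ := semilinear_of_pres hm (pres_all hm h4 β) (pres_all hm h4 β.symm)
    exact ⟨⟨g, hg⟩, σ, eq_cP_fP hg hI⟩
  have hbij : Function.Bijective (fun x : (cP (m := m) (F := F)).range × (F ≃+* F) => (x.1 : MulAut (PSp m F)) * fP x.2) := by
    constructor
    · rintro ⟨⟨_, g, rfl⟩, σ⟩ ⟨⟨_, g', rfl⟩, σ'⟩ h
      simp only at h
      have h1 : (cP (g'⁻¹ * g) : MulAut (PSp m F)) = fP (σ' * σ⁻¹) := by
        rw [map_mul, map_mul, map_inv, map_inv]
        rw [inv_mul_eq_iff_eq_mul, ← mul_assoc, eq_mul_inv_iff_mul_eq]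
        exact h
      have h2 := field_of_cP_eq hm1 _ _ h1
      have h3 : σ = σ' := by
        have := mul_inv_eq_one.mp h2
        exact this.symm
      subst h3
      have h5 : (cP g : MulAut (PSp m F)) = cP g' := mul_right_cancel h
      simp [h5]
    · intro β
      obtain ⟨g, σ, rfl⟩ := hdec β
      exact ⟨(⟨cP g, g, rfl⟩, σ), rfl⟩
  have h1 := Nat.card_congr (Equiv.ofBijective _ hbij)
  rw [Nat.card_prod, hgal, card_range_cP hm1] at h1
  have h2 := Subgroup.card_eq_card_quotient_mul_card_subgroup (Subgroup.center (SpG m F))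
  have h3 := card_center_sp (F := F) hm1
  rw [h3, hF] at h2
  rw [← h1, h2]
  ring

end Cfsg.Agent.Lib.Classical.AutCount
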