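/-
Sylow `p`-subgroups of `GL_2(F)`, `p` the characteristic: they all lie in `SL_2(F)`, and correspond to
the points of the projective line.
-/
import Mathlib
import Cfsg.Agent.Lib.Classical.SL2Sylow

set_option autoImplicit false
set_option linter.unusedSectionVars false

open Matrix Matrix.SpecialLinearGroup
open scoped MatrixGroups LinearAlgebra.Projectivization Pointwise

namespace Cfsg.Agent.Lib.Classical

variable {F : Type*} [Field F] [Fintype F]
variable {p : ℕ} [Fact p.Prime] [CharP F p]

/-- The inclusion of `SL_2` in `GL_2`. -/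
abbrev iotaG : SpecialLinearGroup (Fin 2) F →* GeneralLinearGroup (Fin 2) F := SpecialLinearGroup.toGL

lemma iotaG_injective : Function.Injective (iotaG (F := F)) := by
  intro A B h
  apply Subtype.ext
  exact congrArg (fun g : GeneralLinearGroup (Fin 2) F => (g : Matrix (Fin 2) (Fin 2) F)) h

/-- The `p`-subgroup attached to a point. -/
def UG (r : ℙ F (Fin 2 → F)) : Subgroup (GeneralLinearGroup (Fin 2) F) := (UU r).map iotaG

lemma card_UG (r : ℙ F (Fin 2 → F)) : Nat.card (UG r) = Nat.card F := by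
  rw [← card_UU r]
  exact Nat.card_congr (Subgroup.equivMapOfInjective _ _ iotaG_injective).symm.toEquiv

lemma card_GL2 : Nat.card (GeneralLinearGroup (Fin 2) F) =
    Fintype.card F * ((Fintype.card F - 1) * ((Fintype.card F - 1) * (Fintype.card F + 1))) := by
  rw [Matrix.card_GL_field, Fin.prod_univ_two]
  obtain ⟨r, hr⟩ : ∃ r, Fintype.card F = r + 1 := ⟨Fintype.card F - 1, by
    have : 1 < Fintype.card F := Fintype.one_lt_card
    omega⟩
  rw [hr]
  have e1 : ((r + 1) ^ 2 - (r + 1) ^ ((0 : Fin 2) : ℕ)) = r * (r + 2) := by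
    simp only [Fin.val_zero, pow_zero]
    have : (r + 1) ^ 2 = r * (r + 2) + 1 := by ring
    omega
  have e2 : ((r + 1) ^ 2 - (r + 1) ^ ((1 : Fin 2) : ℕ)) = (r + 1) * r := by
    simp only [Fin.val_one, pow_one]
    have : (r + 1) ^ 2 = (r + 1) * r + (r + 1) := by ring
    omega
  rw [e1, e2]
  simp only [Nat.add_sub_cancel]
  ring

lemma isPGroup_UG (r : ℙ F (Fin 2 → F)) : IsPGroup p (UG r) := by
  obtain ⟨f, _, hq⟩ := card_F_pos_pow (F := F) (p := p)
  apply IsPGroup.of_card (n := f)
  rw [card_UG, Nat.card_eq_fintype_card, hq]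

lemma not_dvd_q_pred : ¬ p ∣ Fintype.card F - 1 := by
  intro h
  apply not_dvd_q_pred_succ (F := F) (p := p)
  exact Dvd.dvd.mul_right h _

lemma index_UG (r : ℙ F (Fin 2 → F)) :
    (UG r).index = (Fintype.card F - 1) * ((Fintype.card F - 1) * (Fintype.card F + 1)) := by
  have h := Subgroup.card_mul_index (UG r)
  rw [card_UG, card_GL2, Nat.card_eq_fintype_card] at h
  exact Nat.eq_of_mul_eq_mul_left Fintype.card_pos h

/-- The Sylow subgroup attached to a point. -/
noncomputable def sylowGL2 (p : ℕ) [Fact p.Prime] [CharP F p] (r : ℙ F (Fin 2 → F)) :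
    Sylow p (GeneralLinearGroup (Fin 2) F) :=
  (isPGroup_UG r).toSylow (by
    rw [index_UG]
    intro h
    have hp : p.Prime := Fact.out
    rcases hp.dvd_mul.mp h with h | h
    · exact not_dvd_q_pred (F := F) (p := p) h
    · exact not_dvd_q_pred_succ (F := F) (p := p) h)

@[simp] lemma coe_sylowGL2 (r : ℙ F (Fin 2 → F)) :
    ((sylowGL2 p r : Sylow p (GeneralLinearGroup (Fin 2) F)) : Subgroup (GeneralLinearGroup (Fin 2) F)) = UG r := rfl

/-- A `p`-element has determinant one. -/
lemma det_eq_one_of_pow (x : GeneralLinearGroup (Fin 2) F) (hx : ∃ n : ℕ, x ^ (p ^ n) = 1) :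
    Matrix.GeneralLinearGroup.det x = 1 := by
  classical
  obtain ⟨n, h1⟩ := hx
  have h2 : (Matrix.GeneralLinearGroup.det x) ^ (p ^ n) = 1 := by
    rw [← map_pow, h1, map_one]
  have h3 : orderOf (Matrix.GeneralLinearGroup.det x) ∣ Nat.card Fˣ := orderOf_dvd_natCard _
  have hc : Nat.card Fˣ = Fintype.card F - 1 := by
    rw [Nat.card_eq_fintype_card, Fintype.card_units]
  rw [hc] at h3
  have h4 : orderOf (Matrix.GeneralLinearGroup.det x) ∣ p ^ n := orderOf_dvd_of_pow_eq_one h2
  have hcop : Nat.Coprime (p ^ n) (Fintype.card F - 1) := by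
    apply Nat.Coprime.pow_left
    exact (Nat.Prime.coprime_iff_not_dvd Fact.out).mpr (not_dvd_q_pred (F := F) (p := p))
  have h5 : orderOf (Matrix.GeneralLinearGroup.det x) ∣ 1 := by
    rw [← hcop.gcd_eq_one]
    exact Nat.dvd_gcd h4 h3
  exact orderOf_eq_one_iff.mp (Nat.dvd_one.mp h5)

/-- Each Sylow `p`-subgroup of `GL_2` comes from a point. -/
lemma exists_eq_UG (P : Sylow p (GeneralLinearGroup (Fin 2) F)) :
    ∃ r : ℙ F (Fin 2 → F), (P : Subgroup (GeneralLinearGroup (Fin 2) F)) = UG r := by
  classical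
  -- `P` lies in the image of `SL_2`.
  have hsub : ∀ x ∈ (P : Subgroup (GeneralLinearGroup (Fin 2) F)), x ∈ (iotaG (F := F)).range := by
    intro x hx
    have hp : ∃ n : ℕ, x ^ (p ^ n) = 1 := by
      obtain ⟨n, hn⟩ := P.isPGroup' ⟨x, hx⟩
      refine ⟨n, ?_⟩
      have := congrArg Subtype.val hn
      simpa using this
    have hd := det_eq_one_of_pow x hp
    refine ⟨⟨x.1, ?_⟩, ?_⟩
    · have := congrArg Units.val hd
      simpa using this
    · ext i j
      rfl
  let P' : Subgroup (SpecialLinearGroup (Fin 2) F) := (P : Subgroup _).comap iotaG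
  have hmap : P'.map iotaG = (P : Subgroup _) := by
    rw [Subgroup.map_comap_eq_self]
    exact fun x hx => hsub x hx
  have hcard : Nat.card P' = Nat.card F := by
    have h1 : Nat.card P' = Nat.card (P : Subgroup (GeneralLinearGroup (Fin 2) F)) := by
      have := Nat.card_congr (Subgroup.equivMapOfInjective P' iotaG iotaG_injective).toEquiv
      rw [hmap] at this
      exact this
    have h2 : Nat.card (P : Subgroup (GeneralLinearGroup (Fin 2) F)) =
        Nat.card (sylowGL2 p (p0 : ℙ F (Fin 2 → F)) : Subgroup (GeneralLinearGroup (Fin 2) F)) :=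
      Nat.card_congr (Sylow.equiv P (sylowGL2 p (p0 : ℙ F (Fin 2 → F)))).toEquiv
    rw [h1, h2]
    exact card_UG _
  have hpg : IsPGroup p P' := by
    obtain ⟨f, _, hq⟩ := card_F_pos_pow (F := F) (p := p)
    apply IsPGroup.of_card (n := f)
    rw [hcard, Nat.card_eq_fintype_card, hq]
  have hidx : P'.index = (Fintype.card F - 1) * (Fintype.card F + 1) := by
    have h := Subgroup.card_mul_index P'
    rw [hcard, card_SL2, Nat.card_eq_fintype_card] at h
    exact Nat.eq_of_mul_eq_mul_left Fintype.card_pos h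
  obtain ⟨r, hr⟩ := exists_eq_UU (p := p) (hpg.toSylow (by rw [hidx]; exact not_dvd_q_pred_succ))
  refine ⟨r, ?_⟩
  rw [← hmap, UG, ← hr]
  rfl

lemma UG_injective : Function.Injective (UG : ℙ F (Fin 2 → F) → Subgroup (GeneralLinearGroup (Fin 2) F)) := by
  intro r s h
  apply UU_injective
  exact Subgroup.map_injective iotaG_injective h

lemma UG_inf {r s : ℙ F (Fin 2 → F)} (h : r ≠ s) : UG r ⊓ UG s = ⊥ := by
  rw [UG, UG, ← Subgroup.map_inf _ _ _ iotaG_injective, UU_inf_eq_bot h, Subgroup.map_bot]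

/-- The number of Sylow subgroups. -/
theorem card_sylow_GL2 : Nat.card (Sylow p (GeneralLinearGroup (Fin 2) F)) = Fintype.card F + 1 := by
  classical
  have hb : Function.Bijective (sylowGL2 (F := F) p) := by
    constructor
    · intro r s h
      apply UG_injective (F := F)
      have := congrArg (fun P : Sylow p (GeneralLinearGroup (Fin 2) F) =>
        (P : Subgroup (GeneralLinearGroup (Fin 2) F))) h
      exact this
    · intro P
      obtain ⟨r, hr⟩ := exists_eq_UG P
      exact ⟨r, Sylow.ext hr.symm⟩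
  rw [← Nat.card_congr (Equiv.ofBijective _ hb)]
  have := Projectivization.card_of_finrank_two F (Fin 2 → F) (by simp)
  rw [Nat.card_eq_fintype_card (α := F)] at this
  exact this

/-- Distinct Sylow subgroups intersect trivially. -/
theorem sylow_GL2_inf (P Q : Sylow p (GeneralLinearGroup (Fin 2) F)) (h : P ≠ Q) :
    (P : Subgroup (GeneralLinearGroup (Fin 2) F)) ⊓ (Q : Subgroup (GeneralLinearGroup (Fin 2) F)) = ⊥ := by
  obtain ⟨r, hr⟩ := exists_eq_UG P
  obtain ⟨s, hs⟩ := exists_eq_UG Q
  rw [hr, hs]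
  apply UG_inf
  rintro rfl
  exact h (Sylow.ext (hr.trans hs.symm))

/-- The normaliser of a Sylow subgroup. -/
theorem card_normalizer_GL2 (P : Sylow p (GeneralLinearGroup (Fin 2) F)) :
    Nat.card (Subgroup.normalizer ((P : Subgroup (GeneralLinearGroup (Fin 2) F)) :
      Set (GeneralLinearGroup (Fin 2) F))) = Fintype.card F * (Fintype.card F - 1) ^ 2 := by
  have h1 : Fintype.card F + 1 = (Subgroup.normalizer ((P : Subgroup (GeneralLinearGroup (Fin 2) F)) :
      Set (GeneralLinearGroup (Fin 2) F))).index := by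
    rw [← card_sylow_GL2 (p := p)]
    exact Sylow.card_eq_index_normalizer P
  have h2 := Subgroup.card_mul_index (Subgroup.normalizer ((P : Subgroup (GeneralLinearGroup (Fin 2) F)) :
      Set (GeneralLinearGroup (Fin 2) F)))
  rw [← h1, card_GL2] at h2
  have : Fintype.card F * (Fintype.card F - 1) ^ 2 * (Fintype.card F + 1) =
      Nat.card (Subgroup.normalizer ((P : Subgroup (GeneralLinearGroup (Fin 2) F)) :
      Set (GeneralLinearGroup (Fin 2) F))) * (Fintype.card F + 1) := by
    rw [h2]
    ring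
  exact (Nat.eq_of_mul_eq_mul_right (Nat.succ_pos _) this).symm

end Cfsg.Agent.Lib.Classical
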