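/-
The quadratic form on the heart of the permutation module on eight letters.
-/
import Mathlib
import Cfsg.Prelude.Def_Classical
import Cfsg.Agent.Lib.Classical.Heart
import Cfsg.Agent.Lib.Classical.OrderQuad
import Cfsg.Agent.Lib.Classical.IsoBridge

set_option autoImplicit false
set_option linter.unusedSectionVars false

namespace Cfsg.Agent.Lib.Classical.Heart

open Abs

local notation "K" => ZMod 2

/-- Half the weight, modulo two. -/
def Q8 (v : Fin 8 → K) : K := (((∑ i, (v i).val) / 2 : ℕ) : K)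

lemma Q8_perm (σ : Equiv.Perm (Fin 8)) (v : Fin 8 → K) : Q8 (fun i => v (σ⁻¹ i)) = Q8 v := by
  unfold Q8
  rw [Equiv.sum_comp σ⁻¹ (fun i => (v i).val)]

lemma Q8_aux : ∀ a b c d e f g h : K, a + b + c + d + e + f + g + h = 0 →
    ((((a + 1).val + (b + 1).val + (c + 1).val + (d + 1).val + (e + 1).val + (f + 1).val + (g + 1).val +
      (h + 1).val) / 2 : ℕ) : K) =
    (((a.val + b.val + c.val + d.val + e.val + f.val + g.val + h.val) / 2 : ℕ) : K) := by
  decide +kernel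

lemma Q8_add_one (v : Fin 8 → K) (hv : ∑ i, v i = 0) : Q8 (fun i => v i + 1) = Q8 v := by
  unfold Q8
  simp only [Fin.sum_univ_eight] at hv ⊢
  exact Q8_aux _ _ _ _ _ _ _ _ hv

lemma Q8_rho (z : Fin 8) (σ : Equiv.Perm (Fin 8)) (v : Fin 8 → K) (hv : v ∈ heart z) :
    Q8 (rhoFun z σ v) = Q8 v := by
  have h0 : ∑ i, v i = 0 := (mem_heart.mp hv).1
  rcases ((by decide : ∀ c : K, c = 0 ∨ c = 1) (v (σ⁻¹ z))) with h | h
  · have : rhoFun z σ v = fun i => v (σ⁻¹ i) := by
      funext i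
      rw [rhoFun_apply, h, add_zero]
    rw [this, Q8_perm]
  · have : rhoFun z σ v = fun i => (fun j => v (σ⁻¹ j)) i + 1 := by
      funext i
      rw [rhoFun_apply, h]
    rw [this, Q8_add_one _ (by rw [sum_perm]; exact h0), Q8_perm]

lemma even8 : Even (Fintype.card (Fin 8)) := by
  simp only [Fintype.card_fin]
  decide

/-- The action on the heart preserves the quadratic form. -/
def heartIsoQ (z : Fin 8) : Equiv.Perm (Fin 8) →* isoG (fun u _ : heart z => Q8 u.1) where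
  toFun σ := ⟨rhoHom even8 z σ, fun u _ => Q8_rho z σ u.1 u.2⟩
  map_one' := by
    apply Subtype.ext
    exact (rhoHom even8 z).map_one
  map_mul' σ τ := by
    apply Subtype.ext
    exact (rhoHom even8 z).map_mul σ τ

lemma heartIsoQ_injective (z : Fin 8) : Function.Injective (heartIsoQ z) := by
  intro σ τ h
  apply rhoHom_injective even8 (by simp) z
  exact congrArg Subtype.val h

/-- The explicit map from the hyperbolic space of dimension six. -/
def thetaFun (w : Fin 3 ⊕ Fin 3 → K) : Fin 8 → K :=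
  let x0 := w (.inl 0); let x1 := w (.inl 1); let x2 := w (.inl 2)
  let y0 := w (.inr 0); let y1 := w (.inr 1); let y2 := w (.inr 2)
  ![x0 + x1 + x2 + y0 + y1 + y2, x0 + x1 + y0, x0 + x2 + y2, x0 + y0 + y1, x1 + x2 + y1, x1 + y1 + y2,
    x2 + y0 + y2, 0]

lemma thetaFun_mem_aux : ∀ x0 x1 x2 y0 y1 y2 : K,
    (x0 + x1 + x2 + y0 + y1 + y2) + (x0 + x1 + y0) + (x0 + x2 + y2) + (x0 + y0 + y1) + (x1 + x2 + y1) +
      (x1 + y1 + y2) + (x2 + y0 + y2) + 0 = 0 := by
  decide +kernel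

lemma thetaFun_mem (w : Fin 3 ⊕ Fin 3 → K) : thetaFun w ∈ heart (7 : Fin 8) := by
  rw [mem_heart]
  constructor
  · simp only [Fin.sum_univ_eight, thetaFun]
    exact thetaFun_mem_aux _ _ _ _ _ _
  · rfl

/-- The explicit map, as a linear map to the heart. -/
def thetaLin : (Fin 3 ⊕ Fin 3 → K) →ₗ[K] heart (7 : Fin 8) where
  toFun w := ⟨thetaFun w, thetaFun_mem w⟩
  map_add' u v := by
    apply Subtype.ext
    funext i
    fin_cases i <;> simp [thetaFun] <;> ring
  map_smul' c u := by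
    apply Subtype.ext
    funext i
    fin_cases i <;> simp [thetaFun] <;> ring

lemma thetaLin_inj_aux : ∀ x0 x1 x2 y0 y1 y2 : K,
    x0 + x1 + x2 + y0 + y1 + y2 = 0 → x0 + x1 + y0 = 0 → x0 + x2 + y2 = 0 → x0 + y0 + y1 = 0 →
    x1 + x2 + y1 = 0 → x1 + y1 + y2 = 0 → x2 + y0 + y2 = 0 →
    x0 = 0 ∧ x1 = 0 ∧ x2 = 0 ∧ y0 = 0 ∧ y1 = 0 ∧ y2 = 0 := by
  decide +kernel

lemma thetaLin_injective : Function.Injective thetaLin := by
  rw [injective_iff_map_eq_zero]
  intro w hw
  have h : ∀ i, thetaFun w i = 0 := fun i => congrFun (congrArg Subtype.val hw) i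
  obtain ⟨h0, h1, h2, h3, h4, h5⟩ := thetaLin_inj_aux (w (.inl 0)) (w (.inl 1)) (w (.inl 2)) (w (.inr 0))
    (w (.inr 1)) (w (.inr 2)) (h 0) (h 1) (h 2) (h 3) (h 4) (h 5) (h 6)
  funext i
  rcases i with i | i <;> fin_cases i <;> assumption

lemma finrank_heart7 : Module.finrank K (heart (7 : Fin 8)) = 6 := by
  have := finrank_heart (α := Fin 8) (by simp) 7
  simp at this
  omega

/-- The explicit isomorphism. -/
noncomputable def thetaEquiv : (Fin 3 ⊕ Fin 3 → K) ≃ₗ[K] heart (7 : Fin 8) :=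
  LinearMap.linearEquivOfInjective thetaLin thetaLin_injective (by
    rw [finrank_heart7]
    simp)

lemma Q8_theta_aux : ∀ x0 x1 x2 y0 y1 y2 : K,
    ((((x0 + x1 + x2 + y0 + y1 + y2).val + (x0 + x1 + y0).val + (x0 + x2 + y2).val + (x0 + y0 + y1).val +
      (x1 + x2 + y1).val + (x1 + y1 + y2).val + (x2 + y0 + y2).val + (0 : K).val) / 2 : ℕ) : K) =
    x0 * y0 + x1 * y1 + x2 * y2 := by
  decide +kernel

lemma Q8_theta (w : Fin 3 ⊕ Fin 3 → K) : Q8 (thetaEquiv w).1 = Cfsg.quadFormPlus 3 K w := by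
  change Q8 (thetaFun w) = _
  unfold Q8 Cfsg.quadFormPlus
  simp only [Fin.sum_univ_eight, Fin.sum_univ_three, thetaFun]
  exact Q8_theta_aux _ _ _ _ _ _

end Cfsg.Agent.Lib.Classical.Heart
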