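/-
The Klein correspondence: `SL_4` acts on alternating `4 × 4` matrices by `X ↦ A X Aᵀ`, preserving the Pfaffian,
which in suitable coordinates is the hyperbolic quadratic form in dimension six.
-/
import Mathlib
import Cfsg.Prelude.Def_Classical
import Cfsg.Agent.Lib.Classical.IsoAbs

set_option autoImplicit false
set_option linter.unusedSectionVars false

open scoped Matrix

namespace Cfsg.Agent.Lib.Classical.Klein

variable {F : Type*} [Field F]

/-- The alternating matrix with given coordinates. -/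
def altM (w : Fin 3 ⊕ Fin 3 → F) : Matrix (Fin 4) (Fin 4) F :=
  !![0, w (.inl 0), w (.inl 1), w (.inl 2);
     -w (.inl 0), 0, w (.inr 2), -w (.inr 1);
     -w (.inl 1), -w (.inr 2), 0, w (.inr 0);
     -w (.inl 2), w (.inr 1), -w (.inr 0), 0]

/-- The coordinates of a matrix. -/
def extM (X : Matrix (Fin 4) (Fin 4) F) : Fin 3 ⊕ Fin 3 → F :=
  Sum.elim ![X 0 1, X 0 2, X 0 3] ![X 2 3, -X 1 3, X 1 2]

@[simp] lemma extM_altM (w : Fin 3 ⊕ Fin 3 → F) : extM (altM w) = w := by
  funext i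
  rcases i with i | i <;> fin_cases i <;> simp [extM, altM]

lemma altM_extM (X : Matrix (Fin 4) (Fin 4) F) (h0 : ∀ i, X i i = 0) (h1 : ∀ i j, X j i = - X i j) :
    altM (extM X) = X := by
  ext i j
  fin_cases i <;> fin_cases j <;> simp [extM, altM, h0, h1 1 0, h1 2 0, h1 3 0, h1 2 1, h1 3 1, h1 3 2]

lemma mul_alt_diag (A : Matrix (Fin 4) (Fin 4) F) (w : Fin 3 ⊕ Fin 3 → F) (i : Fin 4) :
    (A * altM w * A.transpose) i i = 0 := by
  fin_cases i <;>
    simp [altM, Matrix.mul_apply, Fin.sum_univ_four] <;> ring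

lemma mul_alt_antisymm (A : Matrix (Fin 4) (Fin 4) F) (w : Fin 3 ⊕ Fin 3 → F) (i j : Fin 4) :
    (A * altM w * A.transpose) j i = - (A * altM w * A.transpose) i j := by
  simp only [altM, Matrix.mul_apply, Fin.sum_univ_four, Matrix.transpose_apply]
  simp
  ring

/-- The action on coordinates. -/
def rhoK (A : Matrix (Fin 4) (Fin 4) F) (w : Fin 3 ⊕ Fin 3 → F) : Fin 3 ⊕ Fin 3 → F :=
  extM (A * altM w * A.transpose)

lemma altM_rhoK (A : Matrix (Fin 4) (Fin 4) F) (w : Fin 3 ⊕ Fin 3 → F) :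
    altM (rhoK A w) = A * altM w * A.transpose :=
  altM_extM _ (mul_alt_diag A w) (mul_alt_antisymm A w)

lemma rhoK_mul (A B : Matrix (Fin 4) (Fin 4) F) (w : Fin 3 ⊕ Fin 3 → F) :
    rhoK (A * B) w = rhoK A (rhoK B w) := by
  have h := altM_rhoK B w
  change extM _ = extM (A * altM (rhoK B w) * A.transpose)
  rw [h, Matrix.transpose_mul]
  congr 1
  simp only [Matrix.mul_assoc]

lemma rhoK_one (w : Fin 3 ⊕ Fin 3 → F) : rhoK 1 w = w := by
  simp [rhoK]

lemma altM_add (u v : Fin 3 ⊕ Fin 3 → F) : altM (u + v) = altM u + altM v := by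
  ext i j
  fin_cases i <;> fin_cases j <;> simp [altM] <;> ring

lemma altM_smul (c : F) (u : Fin 3 ⊕ Fin 3 → F) : altM (c • u) = c • altM u := by
  ext i j
  fin_cases i <;> fin_cases j <;> simp [altM]

lemma extM_add (X Y : Matrix (Fin 4) (Fin 4) F) : extM (X + Y) = extM X + extM Y := by
  funext i
  rcases i with i | i <;> fin_cases i <;> simp [extM] <;> ring

lemma extM_smul (c : F) (X : Matrix (Fin 4) (Fin 4) F) : extM (c • X) = c • extM X := by
  funext i
  rcases i with i | i <;> fin_cases i <;> simp [extM]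

/-- The action as a linear map. -/
def rhoL (A : Matrix (Fin 4) (Fin 4) F) : (Fin 3 ⊕ Fin 3 → F) →ₗ[F] (Fin 3 ⊕ Fin 3 → F) where
  toFun := rhoK A
  map_add' u v := by
    unfold rhoK
    rw [altM_add, Matrix.mul_add, Matrix.add_mul, extM_add]
  map_smul' c u := by
    unfold rhoK
    rw [altM_smul, Matrix.mul_smul, Matrix.smul_mul, extM_smul]
    rfl

lemma pfaffian_det (A : Matrix (Fin 4) (Fin 4) F) (w : Fin 3 ⊕ Fin 3 → F) :
    Cfsg.quadFormPlus 3 F (rhoK A w) = A.det * Cfsg.quadFormPlus 3 F w := by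
  unfold Cfsg.quadFormPlus rhoK
  simp only [Fin.sum_univ_three, extM, Sum.elim_inl, Sum.elim_inr, altM, Matrix.mul_apply, Fin.sum_univ_four,
    Matrix.transpose_apply, Matrix.det_succ_row_zero, Fin.sum_univ_succ, Matrix.submatrix_apply]
  simp [Matrix.det_fin_three, Fin.succAbove, Fin.sum_univ_succ]
  ring

/-- The action of `SL_4` as automorphisms. -/
def rhoEquiv (A : Matrix.SpecialLinearGroup (Fin 4) F) : (Fin 3 ⊕ Fin 3 → F) ≃ₗ[F] (Fin 3 ⊕ Fin 3 → F) where
  toLinearMap := rhoL A.1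
  invFun := rhoK (A⁻¹).1
  left_inv w := by
    change rhoK _ (rhoK _ w) = w
    rw [← rhoK_mul]
    have : ((A⁻¹ : Matrix.SpecialLinearGroup (Fin 4) F) : Matrix (Fin 4) (Fin 4) F) * A.1 = 1 :=
      congrArg Subtype.val (inv_mul_cancel A)
    rw [this, rhoK_one]
  right_inv w := by
    change rhoK _ (rhoK _ w) = w
    rw [← rhoK_mul]
    have : A.1 * ((A⁻¹ : Matrix.SpecialLinearGroup (Fin 4) F) : Matrix (Fin 4) (Fin 4) F) = 1 :=
      congrArg Subtype.val (mul_inv_cancel A)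
    rw [this, rhoK_one]

@[simp] lemma rhoEquiv_apply (A : Matrix.SpecialLinearGroup (Fin 4) F) (w : Fin 3 ⊕ Fin 3 → F) :
    rhoEquiv A w = rhoK A.1 w := rfl

/-- The Klein homomorphism. -/
def kleinHom : Matrix.SpecialLinearGroup (Fin 4) F →*
    Abs.isoG (fun u _ : Fin 3 ⊕ Fin 3 → F => Cfsg.quadFormPlus 3 F u) where
  toFun A := ⟨rhoEquiv A, fun u _ => by
    change Cfsg.quadFormPlus 3 F (rhoK A.1 u) = Cfsg.quadFormPlus 3 F u
    rw [pfaffian_det, A.2, one_mul]⟩
  map_one' := by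
    apply Subtype.ext
    apply LinearEquiv.ext
    intro w
    exact rhoK_one w
  map_mul' A B := by
    apply Subtype.ext
    apply LinearEquiv.ext
    intro w
    exact rhoK_mul A.1 B.1 w

lemma kleinHom_apply (A : Matrix.SpecialLinearGroup (Fin 4) F) (w : Fin 3 ⊕ Fin 3 → F) :
    (kleinHom A).1 w = rhoK A.1 w := rfl

end Cfsg.Agent.Lib.Classical.Klein
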